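import Cfsg.Agent.Lib.E8W.Syl

/-!
# No group of automorphisms of `2⁸` or `2⁷` has the affine group `AGL₃(2)` as a proper point stabiliser (helper21)
-/

set_option autoImplicit false

namespace Cfsg.Lib.E8W

open Cfsg.Lib.Calc Subgroup Equiv

variable {G : Type*} [Group G] [Finite G] {D : Subgroup V} {j : V → G} {γ δ : G} {u v : V} {k : Perm (Fin 8)}

theorem nine {Y : Subgroup (Perm (Option (Fin 8)))} (y1 : ∀ a b c : Fin 8, a ≠ b → a ≠ c → b ≠ c →
    swap (some a) (some b) * swap (some c) (some (a ^^^ b ^^^ c)) ∈ Y)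
    (y2 : ∀ σ ∈ Y, σ none = none → ∃ k ∈ KK, ∀ i, σ (some i) = some (k i)) (σ) (m : σ ∈ Y) : σ none = none := by_contra fun n => by
  obtain ⟨b, hb⟩ := Option.ne_none_iff_exists'.1 fun e : σ⁻¹ none = none => n (Perm.inv_eq_iff_eq.1 e).symm
  replace hb := (Perm.inv_eq_iff_eq.1 hb).symm
  have k (p) (h : p ≠ b) : ∃ q, σ (some p) = some q := Option.ne_none_iff_exists'.1 (hb ▸ σ.injective.ne (by simpa))
  obtain ⟨p, q, h1, h2, h3, h4, h5, h6⟩ := (by decide : ∀ b : Fin 8, ∃ p q, b ≠ p ∧ b ≠ q ∧ p ≠ q ∧ b ^^^ p ^^^ q ≠ b ∧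
    p ≠ b ^^^ p ^^^ q ∧ q ≠ b ^^^ p ^^^ q) b
  obtain ⟨p', hp⟩ := k p h1.symm
  obtain ⟨q', hq⟩ := k q h2.symm
  obtain ⟨r', hr⟩ := k _ h4
  have e := mul_mem (mul_mem m (y1 b p q h1 h2 h3)) (inv_mem m)
  rw [← MulAut.conj_apply, map_mul, MulAut.conj_apply, MulAut.conj_apply, ← swap_apply_apply, ← swap_apply_apply, hb, hp, hq, hr] at e
  have ne {a b a' b'} (h : a ≠ b) (s : σ (some a) = some a') (t : σ (some b) = some b') : a' ≠ b' :=
    fun e => h (Option.some_injective _ (σ.injective (by rw [s, t, e])))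
  obtain ⟨a, b, c, g1, g2, g3, g4, x, g5, y, g6, w, g7, g8⟩ := (by decide +kernel : ∀ p q r : Fin 8, p ≠ q → p ≠ r → q ≠ r →
    ∃ a b c, a ≠ b ∧ a ≠ c ∧ b ≠ c ∧ (fun τ : Perm (Option (Fin 8)) => τ none = none ∧ ∃ x, τ (some a) = some x ∧
      ∃ y, τ (some b) = some y ∧ ∃ w, τ (some c) = some w ∧ τ (some (a ^^^ b ^^^ c)) ≠ some (x ^^^ y ^^^ w))
      (swap none (some p) * swap (some q) (some r) * (swap (some a) (some b) * swap (some c) (some (a ^^^ b ^^^ c))) *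
        (swap none (some p) * swap (some q) (some r))⁻¹)) p' q' r' (ne h3 hp hq) (ne h5 hp hr) (ne h6 hq hr)
  obtain ⟨k, s, t⟩ := y2 _ (mul_mem (mul_mem e (y1 a b c g1 g2 g3)) (inv_mem e)) g4
  rw [t, Option.some_inj] at g5 g6 g7
  exact g8 (by rw [t, s, g5, g6, g7])

theorem pa_swap {a b : Fin 8} (h : a ≠ b) (u : V) : pa (swap a b) u * u = 1 ∨ pa (swap a b) u * u = EE a b := by
  refine (em (u a = u b)).imp (fun e => funext fun i => ?_) fun e => funext fun i => ?_ <;>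
    rcases eq_or_ne i a with rfl | p <;> rcases eq_or_ne i b with rfl | q <;>
    simp_all [pa, EE, swap_apply_of_ne_of_ne, Int.units_ne_iff_eq_neg]

/-- the normaliser -/
def NZ (D : Subgroup V) (j : V → G) : Subgroup G :=
  let S : Submonoid G :=
    { carrier := {γ | ∀ v ∈ D, ∃ u ∈ D, γ * j v * γ⁻¹ = j u}, one_mem' := fun v m => ⟨v, m, by simp⟩
      mul_mem' := fun {γ δ} p q v m => let ⟨u, a, b⟩ := q v m; let ⟨w, c, d⟩ := p u a; ⟨w, c, by rw [← d, ← b]; group⟩ }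
  { S with inv_mem' := fun {γ} m => Submonoid.powers_le.2 m (mem_powers_iff_mem_zpowers.2 (inv_mem (mem_zpowers γ))) }

/-- a group of sign vectors in `G` -/
structure Fr (D : Subgroup V) (j : V → G) : Prop where
  ev : ∀ v, par v = 1 → v ∈ D
  mul : ∀ u ∈ D, ∀ v ∈ D, j (u * v) = j u * j v
  inj : ∀ v ∈ D, j v = 1 → v = 1
  c1 : ∀ k ∈ KK, ∃ γ, ∀ v ∈ D, γ * j v * γ⁻¹ = j (pa k v)
  c3 : ∀ γ ∈ NZ D j, γ * j (-1) * γ⁻¹ = j (-1) → ∃ k ∈ KK, ∀ v ∈ D, γ * j v * γ⁻¹ = j (pa k v)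

/-- one step of the count -/
noncomputable def Ns (M : ℕ) (c : ℕ → ℕ) (n N : ℕ) : ℕ :=
  Nat.rec (motive := fun _ => ℕ) 0 (fun y ih => Nat.add ih (cnd (Nat.beq (get 1 M y) 1) (forceN (Nat.xor n y) c) 0)) N

/-- counting representations as sums -/
noncomputable def Nc (M k : ℕ) : ℕ → ℕ := Nat.rec (motive := fun _ => ℕ → ℕ) (get 1 M) (fun _ c n => Ns M c n 256) k

theorem Ns_eq (M c n N) : Ns M c n N = ∑ y ∈ Finset.range N, if M.testBit y then c (n ^^^ y) else 0 := by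
  induction N with
  | zero => rfl
  | succ N ih =>
    rw [Finset.sum_range_succ, ← ih]
    change _ + cnd _ _ _ = _
    rw [get_one_eq, forceN_eq]
    cases M.testBit N <;> rfl

theorem chkN : (allLt 1024 fun m => bor (m.testBit 0 || m.testBit 2 || m.testBit 9 || !m.testBit 8 ||
    m == 256 || m == 258 || m == 384) (forceB (bits (fun n => m.testBit (ty n)) 256) fun M =>
      bor (anyLt 10 fun t => m.testBit t && Nc M 1 (rp t) != Nc M 1 255)
        (anyLt 10 fun t => m.testBit t && Nc M 2 (rp t) != Nc M 2 255))) = true := by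
  decide +kernel

/-- test vectors -/
def TL : List ℕ := [130, 51, 144, 86, 68, 232, 210, 197, 212]

theorem chkR : ∀ a b : Fin 8, a ≠ b → ∀ c, c ≠ a → c ≠ b → ∀ d, d ≠ a → d ≠ b → d ≠ c → d ≠ a ^^^ b ^^^ c →
    (∀ i, af a b c d (af a b c d i) = i) ∧ (∃ i, af a b c d i = i) ∨
      5 ≤ ((TL.map fun f => act (af a b c d) f ^^^ f).toFinset).card := by
  decide +kernel

/-- nine points -/
def pt (e : ℤˣ) : Option (Fin 8) → V
  | none => -1
  | some i => fun l => e * EE i i l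

namespace Fr
variable (H : Fr D j)
include H

theorem pa_mem (m : v ∈ D) : pa k v ∈ D := by
  simpa [mul_assoc, vsq] using mul_mem (H.ev (pa k v * v) (by rw [map_mul, par_pa, Int.units_mul_self])) m

theorem one : j 1 = 1 := by simpa using H.mul 1 (one_mem _) 1 (one_mem _)

theorem sq (m : v ∈ D) : j v * j v = 1 := by rw [← H.mul v m v m, vsq, H.one]

theorem inj' (a : u ∈ D) (b : v ∈ D) (e : j u = j v) : u = v :=
  mul_right_cancel ((H.inj _ (mul_mem a b) (by rw [H.mul u a v b, e, H.sq b])).trans (vsq v).symm)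

theorem nz (h : ∀ v ∈ D, γ * j v * γ⁻¹ = j (pa k v)) : γ ∈ NZ D j := fun v m => ⟨_, H.pa_mem m, h v m⟩

theorem rank (m : γ ∈ NZ D j) (z : γ * j (-1) * γ⁻¹ = j (-1)) {a b c d : Fin 8} (p : a ≠ b) (q : c ≠ d) (J : V → G)
    (h : ∀ v ∈ D, ∃ u, γ * j v * γ⁻¹ * j v = J (pa (swap a b * swap c d) u * u)) :
    ∃ k ∈ KK, (∀ v ∈ D, γ * j v * γ⁻¹ = j (pa k v)) ∧ k * k = 1 ∧ ∃ i, k i = i := by
  classical
  obtain ⟨k, s, t⟩ := H.c3 γ m z
  have e := af_eq (inv_mem s)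
  have n {a b} (h : a ≠ b) := k⁻¹.injective.ne h
  rcases chkR _ _ (n (a := 0) (b := 1) (by decide)) _ (n (a := 2) (by decide)) (n (by decide)) _ (n (a := 4) (by decide)) (n (by decide))
    (n (by decide)) (inv_mem s 0 1 2 ▸ n (by decide)) with ⟨f, i, g⟩ | f
  · rw [← e] at f g
    exact ⟨k, s, t, inv_eq_one.1 (Equiv.ext f), i, (Perm.inv_eq_iff_eq.1 g).symm⟩
  have k1 (y) (hy : y ∈ (TL.map fun f => act (k⁻¹ :) f ^^^ f).toFinset) :
      y < 256 ∧ ∃ v, par v = 1 ∧ vec y = pa k v * v := by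
    obtain ⟨f, hf, rfl⟩ := List.mem_map.1 (List.mem_toFinset.1 hy)
    have := (by decide : ∀ f ∈ TL, f < 256 ∧ par (vec f) = 1) f hf
    exact ⟨Nat.xor_lt_two_pow (n := 8) (bits_lt _ _) this.1, _, this.2, by
      rw [vec_xor]; exact congrArg (· * _) (funext (vec_act _ _))⟩
  have k2 {v} (h : par v = 1) : pa k v * v ∈ D := mul_mem (H.pa_mem (H.ev v h)) (H.ev v h)
  rw [← e] at f
  refine absurd (f.trans ((Finset.card_le_card_of_injOn (t := Finset.image J {1, EE a b, EE c d, EE a b * EE c d})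
    (fun y => j (vec y)) (fun y hy => ?_) fun y hy y' hy' g => ?_).trans (Finset.card_image_le.trans Finset.card_le_four))) (by decide)
  · obtain ⟨-, v, g1, g2⟩ := k1 y hy
    obtain ⟨u, g3⟩ := h v (H.ev v g1)
    refine Finset.mem_coe.2 (Finset.mem_image.2 ⟨_, ?_, by rw [← g3]; simp only [g2]; rw [t v (H.ev v g1), H.mul _ (H.pa_mem (H.ev v g1)) _ (H.ev v g1)]⟩)
    rw [show pa (swap a b * swap c d) u * u = pa (swap a b) (pa (swap c d) u) * pa (swap c d) u * (pa (swap c d) u * u) by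
      rw [mul_assoc, ← mul_assoc (pa _ u), vsq, one_mul]; rfl]
    rcases pa_swap p (pa (swap c d) u) with g | g <;> rcases pa_swap q u with g' | g' <;> rw [g, g'] <;> simp
  · obtain ⟨g1, v, g2, g3⟩ := k1 y hy
    obtain ⟨g4, v', g5, g6⟩ := k1 y' hy'
    exact vec_inj g1 g4 (H.inj' (g3 ▸ k2 g2) (g6 ▸ k2 g5) g)

theorem g1 {a b c : Fin 8} (p : a ≠ b) (q : a ≠ c) (r : b ≠ c) (s : par u = 1) (t : pa (sw a b c) (pa (sw a b c) u * u) =
    pa (sw a b c) u * u) (m : γ ∈ NZ D j) : γ * j (-1) * γ⁻¹ ≠ j (pa (sw a b c) u * u) := fun e => by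
  obtain ⟨δ, d⟩ := H.c1 _ (sw_mem p q r)
  have mu := H.ev u s
  obtain ⟨k, -, f, -, i, g⟩ := H.rank (mul_mem (mul_mem (inv_mem m) (H.nz d)) m) (by
    have := d _ (mul_mem (H.pa_mem (k := sw a b c) mu) mu)
    rw [t, ← e] at this
    rw [← mul_left_inj γ⁻¹, ← mul_right_inj γ, ← mul_assoc γ (j _), ← this]; group) p
    ((by decide : ∀ a b c : Fin 8, a ≠ b → c ≠ a ^^^ b ^^^ c) a b c p) (fun w => γ⁻¹ * j w * γ) fun v n => by
      obtain ⟨w, g1, g2⟩ := m v n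
      exact ⟨w, by rw [H.mul _ (H.pa_mem g1) _ g1]; erw [← d w g1]; rw [← g2]; group⟩
  obtain ⟨w, g1, g2⟩ := inv_mem m u mu
  have := congrFun (H.inj' (H.ev (-1) (by decide)) (mul_mem (H.pa_mem (k := k) g1) g1) (by
    rw [H.mul _ (H.pa_mem g1) _ g1, ← f w g1, ← g2, ← mul_left_inj γ⁻¹, ← mul_right_inj γ, ← mul_assoc γ (j _), e,
      H.mul _ (H.pa_mem mu) _ mu, ← d u mu]; group)) i
  rw [Pi.mul_apply, pa, Perm.inv_eq_iff_eq.2 g.symm, Int.units_mul_self] at this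
  exact absurd this (by simp)

theorem comb (m : γ ∈ NZ D j) : γ * j (-1) * γ⁻¹ = j (-1) := by
  classical
  have := Fintype.ofFinite G
  let O : Finset G := {x | ∃ γ ∈ NZ D j, γ * j (-1) * γ⁻¹ = x}
  have mO {x} : x ∈ O ↔ ∃ γ ∈ NZ D j, γ * j (-1) * γ⁻¹ = x := by simp [O]
  have zD := H.ev (-1) (by decide)
  have cO {γ x} (m : γ ∈ NZ D j) (n : x ∈ O) : γ * x * γ⁻¹ ∈ O :=
    let ⟨δ, a, b⟩ := mO.1 n; mO.2 ⟨_, mul_mem m a, by rw [← b]; group⟩
  have cO' {γ x} (m : γ ∈ NZ D j) : x ∈ O ↔ γ * x * γ⁻¹ ∈ O := ⟨cO m, fun n => by simpa [mul_assoc] using cO (inv_mem m) n⟩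
  have eO {x} (n : x ∈ O) : ∃ f < 256, vec f ∈ D ∧ j (vec f) = x := by
    obtain ⟨δ, a, rfl⟩ := mO.1 n
    obtain ⟨v, b, c⟩ := a _ zD
    obtain ⟨f, d, rfl⟩ := exists_vec v
    exact ⟨f, d, b, c.symm⟩
  let Ng : ℕ → G → ℕ := Nat.rec (fun x => if x ∈ O then 1 else 0) fun _ ih x => ∑ y ∈ O, ih (x * y)
  have iN (n) {γ} (m : γ ∈ NZ D j) (x) : Ng n x = Ng n (γ * x * γ⁻¹) := by
    induction n generalizing x with
    | zero => exact if_congr (cO' m) rfl rfl
    | succ n ih => exact Finset.sum_equiv (MulAut.conj γ).toEquiv (fun _ => cO' m) fun y _ => (ih _).trans (congrArg (Ng n) (by simp [mul_assoc]))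
  let s := bits (fun t => decide (vec (rp t) ∈ D ∧ j (vec (rp t)) ∈ O)) 10
  have hs {t} (h : t < 10) : s.testBit t = true ↔ vec (rp t) ∈ D ∧ j (vec (rp t)) ∈ O := by
    rw [testBit_bits h, decide_eq_true_iff]
  have hm {f} (h : f < 256) : s.testBit (ty f) = true ↔ vec f ∈ D ∧ j (vec f) ∈ O := by
    obtain ⟨k, a, b⟩ := orb h
    obtain ⟨δ, d⟩ := H.c1 k a
    rw [hs ((by decide +kernel : ∀ f < 256, ty f < 10) f h), b]
    exact ⟨fun n => ⟨H.pa_mem n.1, d _ n.1 ▸ cO (H.nz d) n.2⟩, fun n =>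
      have e : vec (rp (ty f)) ∈ D := by convert H.pa_mem (k := k⁻¹) n.1 using 1; exact funext fun i => by simp [pa]
      ⟨e, (cO' (H.nz d)).2 (d _ e ▸ n.2)⟩⟩
  let M := bits (fun n => s.testBit (ty n)) 256
  have hM {f} (h : f < 256) : M.testBit f = true ↔ vec f ∈ D ∧ j (vec f) ∈ O := by rw [testBit_bits h, hm h]
  have br (n f) (h : f < 256) (d : vec f ∈ D) : Ng n (j (vec f)) = Nc M n f := by
    induction n generalizing f with
    | zero =>
      change (if _ then 1 else 0) = get 1 M f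
      rw [get_one_eq, if_congr ((hM h).trans (and_iff_right d)).symm rfl rfl]
      cases M.testBit f <;> rfl
    | succ n ih =>
      rw [show Nc M (n + 1) f = _ from Ns_eq M (Nc M n) f 256, ← Finset.sum_filter]
      refine (Finset.sum_bij (fun y _ => j (vec y)) (fun y a => ?_) (fun y a y' a' e => ?_) (fun x a => ?_) fun y a => ?_).symm
      · simp only [Finset.mem_filter, Finset.mem_range] at a
        exact ((hM a.1).1 a.2).2
      · simp only [Finset.mem_filter, Finset.mem_range] at a a'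
        exact vec_inj a.1 a'.1 (H.inj' ((hM a.1).1 a.2).1 ((hM a'.1).1 a'.2).1 e)
      · obtain ⟨y, b, c, rfl⟩ := eO a
        exact ⟨y, by simp [b, hM b, c, a], rfl⟩
      · simp only [Finset.mem_filter, Finset.mem_range] at a
        have := ((hM a.1).1 a.2).1
        rw [← ih _ (Nat.xor_lt_two_pow (n := 8) h a.1) (vec_xor _ _ ▸ mul_mem d this), vec_xor, H.mul _ d _ this]
  have z : vec 255 = -1 := by decide
  have eq (n t) (h : t < 10) (a : s.testBit t = true) : Nc M n (rp t) = Nc M n 255 := by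
    obtain ⟨b, c⟩ := (hs h).1 a
    obtain ⟨δ, d, e⟩ := mO.1 c
    rw [← br n _ ((by decide : ∀ t < 10, rp t < 256) t h) b, ← br n 255 (by decide) (z ▸ zD), z, ← e, ← iN n d]
  have no {t a b c u} (h : t < 10) (p : a ≠ b) (q : a ≠ c) (r : b ≠ c) (g : par u = 1 ∧ pa (sw a b c) (pa (sw a b c) u * u) =
      pa (sw a b c) u * u ∧ vec (rp t) = pa (sw a b c) u * u) : s.testBit t = false := Bool.eq_false_iff.2 fun n =>
    let ⟨δ, d, e⟩ := mO.1 ((hs h).1 n).2; H.g1 p q r g.1 g.2.1 d (g.2.2 ▸ e)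
  have s0 : s.testBit 0 = false := no (a := 0) (b := 1) (c := 2) (u := 1) (by decide) (by decide) (by decide) (by decide) (by decide)
  have s2 : s.testBit 2 = false :=
    no (a := 0) (b := 1) (c := 2) (u := EE 0 4) (by decide) (by decide) (by decide) (by decide) (by decide)
  have s9 : s.testBit 9 = false :=
    no (a := 0) (b := 2) (c := 4) (u := EE 0 4) (by decide) (by decide) (by decide) (by decide) (by decide)
  have s8 : s.testBit 8 = true := (hs (by decide)).2 (show vec 255 ∈ D ∧ j (vec 255) ∈ O from z ▸ ⟨zD, mO.2 ⟨1, one_mem _, by simp⟩⟩)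
  have C := of_allLt chkN (i := s) (bits_lt _ 10)
  simp only [bor_eq_true, forceB_eq, anyLt_iff, s0, s2, s9, s8, Bool.or_eq_true, beq_iff_eq, Bool.and_eq_true, bne_iff_ne] at C
  obtain ⟨f, f1, f2, f3⟩ := eO (mO.2 ⟨γ, m, rfl⟩)
  have key (e : ℤˣ) (h : ∀ n < 256, s.testBit (ty n) = true ↔ ∃ a, vec n = pt e a) : γ * j (-1) * γ⁻¹ = j (-1) := by
    have pO (a) : pt e a ∈ D ∧ j (pt e a) ∈ O := by
      obtain ⟨n, b, c⟩ := exists_vec (pt e a)
      exact c ▸ (hm b).1 ((h n b).2 ⟨a, c⟩)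
    have pi {a b} (h : j (pt e a) = j (pt e b)) : a = b :=
      (by decide : ∀ e a b, pt e a = pt e b → a = b) e a b (H.inj' (pO a).1 (pO b).1 h)
    let Y : Subgroup (Perm (Option (Fin 8))) :=
      { carrier := {σ | ∃ γ ∈ NZ D j, ∀ a, γ * j (pt e a) * γ⁻¹ = j (pt e (σ a))}, one_mem' := ⟨1, one_mem _, by simp⟩
        mul_mem' := fun ⟨γ, a, b⟩ ⟨δ, c, d⟩ => ⟨γ * δ, mul_mem a c, fun x => by rw [Perm.mul_apply, ← b, ← d]; group⟩
        inv_mem' := fun {σ} ⟨γ, a, b⟩ => ⟨γ⁻¹, inv_mem a, fun x => by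
          rw [← σ.apply_symm_apply x, ← b, Perm.inv_def, σ.symm_apply_apply]; group⟩ }
    have pp (k : Perm (Fin 8)) (i) : pa k (pt e (some i)) = pt e (some (k i)) := funext fun l => by
      simp [pa, pt, EE, Perm.inv_eq_iff_eq, Equiv.symm_apply_eq]
    choose σ hσ using fun a : Option (Fin 8) => show ∃ b, γ * j (pt e a) * γ⁻¹ = j (pt e b) from by
      obtain ⟨n, b, c, d⟩ := eO (cO m (pO a).2)
      obtain ⟨b, g⟩ := (h n b).1 ((hm b).2 ⟨c, d ▸ cO m (pO a).2⟩)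
      exact ⟨b, g ▸ d.symm⟩
    have := nine (Y := Y) (fun a b c p q r => by
      obtain ⟨δ, d⟩ := H.c1 _ (sw_mem p q r)
      refine ⟨δ, H.nz d, fun x => (d _ (pO x).1).trans (congrArg j ?_)⟩
      rcases x with _ | x
      · simp [swap_apply_of_ne_of_ne]; rfl
      · rw [pp, sw, Perm.mul_apply, Perm.mul_apply, (Option.some_injective _).swap_apply, (Option.some_injective _).swap_apply])
      (fun σ ⟨δ, a, b⟩ c => by
        obtain ⟨k, p, q⟩ := H.c3 δ a (by simpa [c, pt] using b none)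
        exact ⟨k, p, fun i => pi (by rw [← b, q _ (pO _).1, pp])⟩)
      (ofBijective σ (Function.Injective.bijective_of_finite fun a b g => pi
        ((MulAut.conj γ).injective (by simp only [MulAut.conj_apply, hσ, g])))) ⟨γ, m, hσ⟩
    exact (hσ none).trans (congrArg (j <| pt e ·) this)
  rcases C with ((C | C) | C) | ⟨t, a, b, c⟩ | ⟨t, a, b, c⟩
  · rw [← f3, ← z, (by decide +kernel : ∀ f < 256, (256 : ℕ).testBit (ty f) = true → f = 255) f f1
      (by simpa [← C.resolve_left (by simp)] using (hm f1).2 ⟨f2, f3 ▸ mO.2 ⟨γ, m, rfl⟩⟩)]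
  · exact key 1 (C ▸ by decide +kernel)
  · exact key (-1) (C ▸ by decide +kernel)
  exacts [absurd (eq 1 t a b) c, absurd (eq 2 t a b) c]

end Fr

end Cfsg.Lib.E8W
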