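import Cfsg.Agent.Lib.E8W.Mat

/-!
# Generators of the Weyl group of `E₈`, monomial elements (helper21)
-/

set_option autoImplicit false

namespace Cfsg.Lib.E8W

open Cfsg.Lib.Calc Cfsg.Lib.Mult Subgroup Matrix Equiv

variable {g h w x : GG} {u v : V} {k l : Perm (Fin 8)} {T : List (List ℕ)}

theorem list_mem (l : List ℕ) : (l.map refl).prod ∈ WW ∧ (l.map refl).prod.1.det = (-1) ^ l.length := by
  induction l with
  | nil => exact ⟨one_mem _, by simp⟩
  | cons c l ih => exact ⟨mul_mem (refl_mem c) ih.1, by simp [det_refl, ih.2, pow_succ]⟩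

/-- letters -/
def lt (T : List (List ℕ)) (c : ℕ) : GG := ((T.getD c []).map refl).prod

/-- their codes -/
noncomputable def pk (T : List (List ℕ)) : ℕ := pack 1024 (fun c => cl cr (T.getD c [])) 8

/-- their codes -/
noncomputable def lc (X c : ℕ) : ℕ := cnd (blt c 8) (get 1024 X c) (cl cr [])

theorem lt_one {c : ℕ} (hT : T.length = 8) (hc : 8 ≤ c) : lt T c = 1 := by rw [lt, List.getD_eq_default _ _ (by omega)]; rfl

theorem cd_lt (hT : T.length = 8) (c : ℕ) : Cd (lt T c) (lc (pk T) c) := by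
  rcases lt_or_ge c 8 with e | e
  · rw [lc, blt_iff.2 e, cnd_true, pk, get_pack (w := 1024) (fun i _ => (Cd.list cd_refl _).1.1) e]
    exact .list cd_refl _
  · rw [lc, Bool.eq_false_iff.2 fun n => e.not_gt (blt_iff.1 n), cnd_false, lt_one hT e]
    exact .list cd_refl []

theorem lt_mem (hT : ∀ l ∈ T, Even l.length) (c : ℕ) : lt T c ∈ W0 := mem_W0.2 ⟨(list_mem _).1, by
  rw [lt, (list_mem _).2, Even.neg_one_pow]
  rcases lt_or_ge c T.length with e | e
  · rw [List.getD_eq_getElem _ _ e]; exact hT _ (List.getElem_mem e)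
  · rw [List.getD_eq_default _ _ e]; decide⟩

/-- generators -/
def TA : List (List ℕ) := [[], [197, 226], [196, 226], [196, 233], [104, 150, 163, 230], [163, 197, 226, 230], [225, 238], [135, 233]]

/-- the image of a root -/
noncomputable def img (C n : ℕ) (i : Fin 8) : ℕ := ∑ j : Fin 8, get 16 C (8 * j + i) * get 4 (get 32 RT (n % 240)) j

theorem Cd.img {C n b : ℕ} (p : Cd g C) (h : fd b (img C n) = true) (hb : b ≤ 240 := by omega) :
    ∃ m < b, g.1 *ᵥ rv n = rv m :=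
  (fd_spec h hb).imp fun m e => ⟨e.1, funext fun i => by rw [e.2]; simp [E8W.img, mulVec, dotProduct, p.2, rv]⟩

theorem chkA : (forceB (pk TA) fun X => band (allLt 240 fun n => band (band (fd 240 (img (cr 0) n))
      (allLt 8 fun c => forceB (lc X c) fun C => fd 240 (img C n)))
      (bor (Nat.beq n 0) (anyLt 8 fun c => forceB (lc X c) fun C => fd n (img C n))))
    (allLt 8 fun c => band (Nat.beq (mu (lc X c) (lc X c)) (cl cr [])) (Nat.beq (mu (mu (cr 0) (lc X c)) (cr 0))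
      (cl (lc X) ([[], [1, 5, 7, 1, 2, 4, 6, 7, 6, 4, 2, 1, 7, 5, 1], [1, 3, 1, 2, 6, 4, 6, 7, 6, 4, 6, 2, 1, 3, 1], [1, 6, 3, 4, 6, 7, 6, 4, 6, 1, 2, 1], [3, 4, 2, 5, 6, 7, 6, 4, 6, 7, 6, 2, 4, 3, 4], [4, 2, 5, 7, 6, 2, 4, 6, 2, 7, 5, 2, 4, 6], [4, 2, 5, 7, 6, 2, 4, 6, 5, 2, 7, 5, 2, 4], [1, 2, 7, 6, 4, 6, 7, 6, 4, 6, 2, 1]].getD c []))))) = true := by
  decide +kernel

theorem W0_eq : W0 = Subgroup.closure (Set.range (lt TA)) ∧ ∀ w ∈ WW, ∀ n, ∃ m, w.1 *ᵥ rv n = rv m := by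
  have H := chkA
  simp only [forceB_eq, band_eq_true, allLt_iff, bor_eq_true, anyLt_iff] at H
  set G0 := Subgroup.closure (Set.range (lt TA))
  have cd := cd_lt (T := TA) rfl
  have le : G0 ≤ W0 := (closure_le _).2 (Set.range_subset_iff.2 (lt_mem (by decide)))
  have md (n) : rv (n % 240) = rv n := funext fun i => by rw [rv, Nat.mod_mod, rv]
  have ind {p : GG → Prop} (h1 : p 1) (h2 : ∀ c < 8, ∀ y, p y → p (lt TA c * y)) (w) (m : w ∈ G0) : p w := by
    have h3 (c y) (q : p y) : p (lt TA c * y) ∧ p ((lt TA c)⁻¹ * y) := by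
      rcases lt_or_ge c 8 with e | e
      · rw [inv_eq_of_mul_eq_one_right (((cd c).mul (cd c)).ext (.list cd_refl []) (H.2 c e).1), and_self]; exact h2 c e y q
      · simpa [lt_one (T := TA) rfl e]
    induction m using closure_induction_left with
    | one => exact h1
    | mul_left x a y b ih => exact a.elim fun n e => e ▸ (h3 n y ih).1
    | inv_mul_cancel x a y b ih => exact a.elim fun n e => e ▸ (h3 n y ih).2
  have s2 := refl_sq 0
  have a (c) : lt TA c ∈ G0 := Subgroup.subset_closure ⟨c, rfl⟩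
  have nm : ∀ w ∈ G0, refl 0 * w * refl 0 ∈ G0 := ind (by rw [mul_one, s2]; exact one_mem _) fun c e y q => by
    have := mul_mem ((((cd_refl 0).mul (cd c)).mul (cd_refl 0)).ext (.list cd _) (H.2 c e).2 ▸
      (list_prod_mem (List.forall_mem_map.2 fun c _ => a c) : _ ∈ G0)) q
    rwa [mul_assoc, mul_assoc (refl 0) y, ← mul_assoc (refl 0) (refl 0), s2, one_mul, ← mul_assoc, mul_assoc _ _ y] at this
  have gd (n) : n < 240 → refl n * refl 0 ∈ G0 := by
    induction n using Nat.strong_induction_on with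
    | _ n ih =>
      intro hn
      rcases (H.1 n hn).2 with e | ⟨c, -, e⟩
      · rw [beq_iff.1 e, s2]; exact one_mem _
      obtain ⟨m, h1, h2⟩ := (cd c).img e
      rw [← mul_mem_cancel_left (a c), ← mul_assoc, conj_refl (le (a c)).1 h2]
      convert mul_mem (ih m h1 (h1.trans hn)) (nm _ (a c)) using 1
      simp only [mul_assoc, ← mul_assoc (refl 0) (refl 0), s2, one_mul]
  have gd' (n) : refl n * refl 0 ∈ G0 := by
    have := gd _ (Nat.mod_lt n (by decide))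
    rwa [show refl (n % 240) = refl n from Units.ext (congrArg rf (md n))] at this
  have cov (w) (m : w ∈ WW) : w ∈ G0 ∨ w * refl 0 ∈ G0 := WW_ind (p := fun w => w ∈ G0 ∨ w * refl 0 ∈ G0) m (.inl (one_mem _))
    fun n y _ q => q.symm.imp (fun q => by
      convert mul_mem (gd' n) (nm _ q) using 1
      simp only [mul_assoc, ← mul_assoc (refl 0) (refl 0), s2, one_mul, mul_one]) fun q => by
      convert mul_mem (gd' n) (nm _ q) using 1
      simp only [mul_assoc, ← mul_assoc (refl 0) (refl 0), s2, one_mul]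
  have rt : ∀ w ∈ G0, ∀ n, ∃ m, w.1 *ᵥ rv n = rv m := ind (fun n => ⟨n, by simp⟩) fun c e y q n => by
    obtain ⟨m, hm⟩ := q n
    obtain ⟨m', -, h⟩ := (cd c).img ((H.1 _ (Nat.mod_lt m (by decide))).1.2 c e)
    exact ⟨m', by rw [Units.val_mul, ← mulVec_mulVec, hm, ← md, h]⟩
  refine ⟨le_antisymm (fun w m => (cov w m.1).resolve_right fun q => refl_not 0 ((mul_mem_cancel_left m).1 (le q))) le,
    fun w m n => (cov w m).elim (rt w · n) fun q => ?_⟩
  obtain ⟨m, -, h⟩ := (cd_refl 0).img (H.1 _ (Nat.mod_lt n (by decide))).1.1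
  obtain ⟨m', h'⟩ := rt _ q m
  exact ⟨m', by rw [← h', ← h, md, mulVec_mulVec, ← Units.val_mul, mul_assoc, s2, mul_one]⟩

theorem root_ind {p : (Fin 8 → ZMod 5) → Prop} (h : ∀ n < 240, p (rv n)) (n : ℕ) : p (rv n) :=
  (funext fun i => by rw [rv, Nat.mod_mod, rv] : rv (n % 240) = rv n) ▸ h _ (Nat.mod_lt n (by decide))

theorem mono (m : w ∈ WW) (h : ∀ j, ∃ a b, ∀ i, w.1 i j ≠ 0 → i = a ∨ i = b) : ∃ v, ∃ k ∈ KK, w = dg v * pm k := by
  have A (j) : ∃ a, ∃ s : ℤˣ, ∀ i, w.1 i j = if i = a then sg s else 0 := by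
    obtain ⟨n, -, e⟩ := fd_spec ((by decide +kernel : ∀ i : Fin 8, fd 240 (fun j => if j = i then 2 else 0) = true) j)
    obtain ⟨n', e'⟩ := W0_eq.2 w m n
    have f (i) : rv n' i = w.1 i j * 2 := by simp [← e', mulVec, dotProduct, e]
    obtain ⟨a, b, c⟩ := h j
    obtain ⟨a, s, d⟩ := (root_ind (p := fun r => (∃ a, ∃ s : ℤˣ, ∀ i, r i = (if i = a then sg s else 0) * 2) ∨
      ∀ a b, ∃ i, r i ≠ 0 ∧ i ≠ a ∧ i ≠ b) (by decide +kernel) n').resolve_right fun d =>
        let ⟨i, d1, d2, d3⟩ := d a b; (c i fun z => d1 (by rw [f, z, zero_mul])).elim d2 d3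
    exact ⟨a, s, fun i => (by decide : ∀ x y : ZMod 5, x * 2 = y * 2 → x = y) _ _ ((f i).symm.trans (d i))⟩
  choose κ s A using A
  let k := Equiv.ofBijective κ (Function.Injective.bijective_of_finite fun j j' e => by_contra fun n => by
    have := congrFun₂ (orth m) j j'
    simp only [mul_apply, transpose_apply, A, e, one_apply_ne n] at this
    exact (by decide : ∀ x y, sg x * sg y ≠ 0) _ _ (by simpa using this))
  have e : w = dg (pa k s) * pm k := Units.ext (Matrix.ext fun i j => by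
    rw [A, mon_apply]
    exact if_congr eq_comm.symm.symm rfl rfl |>.trans (if_ctx_congr .rfl (fun e => by simp [pa, ← e]) fun _ => rfl))
  have B (a b c) (p : a ≠ b) (q : a ≠ c) (r : b ≠ c) : k (a ^^^ b ^^^ c) = k a ^^^ k b ^^^ k c := by
    obtain ⟨h1, h2⟩ := (by decide +kernel : ∀ a b c : Fin 8, a ≠ b → a ≠ c → b ≠ c → fd 240 (pv a b c 1 4) = true ∧
      ∀ i, (pv a b c 1 4 i : ZMod 5) ≠ 0 ↔ i = a ∨ i = b ∨ i = c ∨ i = a ^^^ b ^^^ c) a b c p q r
    obtain ⟨n, -, f⟩ := fd_spec h1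
    obtain ⟨n', f'⟩ := W0_eq.2 w m n
    have g (i) : rv n' (k i) ≠ 0 ↔ i = a ∨ i = b ∨ i = c ∨ i = a ^^^ b ^^^ c := by
      rw [← h2, ← f, ← (by decide : ∀ s (x : ZMod 5), sg s * x ≠ 0 ↔ x ≠ 0) (s i) (rv n i), ← f', e]
      simp [mulVec, dotProduct, mon_apply, pa, -Units.val_mul]
    have := root_ind (p := fun r => ∀ a, r a ≠ 0 → ∀ b, r b ≠ 0 → ∀ c, r c ≠ 0 → r (a ^^^ b ^^^ c) ≠ 0) (by decide +kernel) n'
      _ ((g a).2 (by simp)) _ ((g b).2 (by simp)) _ ((g c).2 (by simp))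
    rw [← k.apply_symm_apply (_ ^^^ _), g] at this
    simp only [k.symm_apply_eq] at this
    exact ((by decide +kernel : ∀ a b c d : Fin 8, a ≠ b → a ≠ c → b ≠ c → a ^^^ b ^^^ c = a ∨ a ^^^ b ^^^ c = b ∨
      a ^^^ b ^^^ c = c ∨ a ^^^ b ^^^ c = d → a ^^^ b ^^^ c = d) _ _ _ _ (k.injective.ne p) (k.injective.ne q)
      (k.injective.ne r) this).symm
  have C : ∀ a b : Fin 8, a ^^^ a ^^^ b = b ∧ a ^^^ b ^^^ a = b ∧ b ^^^ a ^^^ a = b := by decide
  refine ⟨_, k, fun a b c => ?_, e⟩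
  by_cases p : a = b
  · rw [p, (C _ _).1, (C _ _).1]
  by_cases q : a = c
  · rw [q, (C _ _).2.1, (C _ _).2.1]
  by_cases r : b = c
  · rw [r, (C _ _).2.2, (C _ _).2.2]
  exact B a b c p q r

/-- two signs -/
def EE (a b : Fin 8) : V := fun i => if i = a ∨ i = b then -1 else 1

theorem exists_sep {i j : Fin 8} (h : i ≠ j) : ∃ u, par u = 1 ∧ u i ≠ u j :=
  let ⟨a, b, c⟩ := (by decide +kernel : ∀ i j : Fin 8, i ≠ j → ∃ a b, par (EE a b) = 1 ∧ EE a b i ≠ EE a b j) i j h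
  ⟨_, c⟩

theorem mono' (m : w ∈ WW) (h : ∀ u, par u = 1 → ∃ v, dg u * w = w * dg v) : ∃ v, ∃ k ∈ KK, w = dg v * pm k :=
  mono m fun j => by
    by_cases e : ∃ a, w.1 a j ≠ 0
    · obtain ⟨a, e⟩ := e
      refine ⟨a, a, fun i f => .inl (by_contra fun n => ?_)⟩
      obtain ⟨u, p, q⟩ := exists_sep n
      obtain ⟨v, r⟩ := h u p
      exact q ((sep r f).trans (sep r e).symm)
    · exact ⟨0, 0, fun i f => absurd ⟨i, f⟩ e⟩

theorem eq_one_of_pa (h : ∀ u, par u = 1 → pa k u = u) : k = 1 :=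
  inv_eq_one.1 (Equiv.ext fun i => by_contra fun n => let ⟨u, p, q⟩ := exists_sep n; q (congrFun (h u p) i))

theorem cen (m : w ∈ WW) (h : ∀ g ∈ W0, w * g = g * w) : w = 1 ∨ w = -1 := by
  obtain ⟨v, k, -, rfl⟩ := mono' m fun u p => ⟨u, (h _ (dg_mem0.2 p)).symm⟩
  obtain rfl : k = 1 := eq_one_of_pa fun u p => by
    have := h _ (dg_mem0.2 p)
    rw [mul_assoc, pm_dg, ← mul_assoc, ← mul_assoc, dg_comm u, mul_left_inj, mul_right_inj] at this
    exact dg_inj this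
  have e (i) : v i = v 0 := by
    obtain ⟨a, b, c, p, q, r, s⟩ := (by decide +kernel : ∀ i : Fin 8, ∃ a b c, a ≠ b ∧ a ≠ c ∧ b ≠ c ∧ (sw a b c)⁻¹ 0 = i) i
    have := h _ (sw_mem0 p q r)
    rw [map_one, mul_one, pm_dg, mul_left_inj] at this
    rw [← s]; exact (congrFun (dg_inj this) 0).symm
  rw [map_one, mul_one, ← dg_neg_one, ← map_one dg]
  exact (Int.units_eq_one_or (v 0)).imp (fun f => congrArg dg (funext fun i => (e i).trans f))
    fun f => congrArg dg (funext fun i => (e i).trans f)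

end Cfsg.Lib.E8W
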