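import Cfsg.Agent.Lib.E8W.Comb
import Cfsg.Agent.Lib.ZStar.Main

/-!
# The central involution of a standard subgroup `2 Ω₈⁺(2)` with cyclic Sylow 2-subgroups in its centraliser is isolated (helper21)
-/

set_option autoImplicit false

namespace Cfsg.Lib.E8W

open Cfsg.Lib.Inv Subgroup Equiv
open scoped commutatorElement

variable {G : Type*} [Group G] [Finite G] {el : GG → G} {C : Subgroup G} {a c g h r s y : G} {p q w x : GG} {v : V}

/-- an element and a matrix which act in the same way -/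
structure Ac (el : GG → G) (h : G) (w : GG) : Prop where
  mem : w ∈ WW
  app : ∀ {p}, p ∈ W0 → h * el p * h⁻¹ = el (w * p * w⁻¹)

namespace Ac
omit [Finite G]

theorem mul (m : Ac el h w) (n : Ac el g x) : Ac el (h * g) (w * x) :=
  ⟨mul_mem m.1 n.1, fun k => by
    have := m.app (conj_mem0 n.1 k)
    rw [← n.app k] at this; simpa [mul_assoc] using this⟩
theorem inv (m : Ac el h w) : Ac el h⁻¹ w⁻¹ := ⟨inv_mem m.1, fun k => by
  rw [mul_inv_eq_iff_eq_mul, inv_mul_eq_iff_eq_mul, ← mul_assoc, m.app (conj_mem0 (inv_mem m.1) k)]; simp [mul_assoc]⟩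
theorem cj (m : Ac el h w) (n : Ac el g x) : Ac el (h * g * h⁻¹) (w * x * w⁻¹) := (m.mul n).mul m.inv
theorem neg (m : Ac el h w) : Ac el h (-w) := ⟨by simpa using mul_mem m.1 neg_mem0.1, fun k => by simpa using m.app k⟩
theorem zc (m : Ac el h w) : Commute h (el (-1)) := mul_inv_eq_iff_eq_mul.1 (by simpa using m.app neg_mem0)

end Ac

theorem ite_par {M : Type*} [Monoid M] {a : M} (h : a * a = 1) (u v : V) :
    (if par (u * v) = 1 then 1 else a) = (if par u = 1 then 1 else a) * if par v = 1 then 1 else a := by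
  rw [map_mul]; rcases Int.units_eq_one_or (par u) with f | f <;> rcases Int.units_eq_one_or (par v) with g | g <;> simp [f, g, h]

/-- the situation -/
structure St (el : GG → G) (C : Subgroup G) : Prop where
  mul : ∀ p ∈ W0, ∀ q ∈ W0, el (p * q) = el p * el q
  inj : ∀ p ∈ W0, el p = 1 → p = 1
  act : ∀ h, Commute h (el (-1)) → ∃ w, Ac el h w
  hC : ∀ c, c ∈ C ↔ Ac el c 1
  cyc : ∀ R : Sylow 2 C, IsCyclic R

/-- conjugates of the central involution -/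
def Bz (el : GG → G) (s : G) : Prop := IsConj s (el (-1)) ∧ Commute s (el (-1)) ∧ s ≠ el (-1)

/-- the sign vectors in `G` -/
structure Jd (el : GG → G) (D : Subgroup V) (j : V → G) : Prop where
  ev : ∀ v, par v = 1 → v ∈ D ∧ j v = el (dg v)
  mul : ∀ u ∈ D, ∀ v ∈ D, j (u * v) = j u * j v
  ac : ∀ v ∈ D, Ac el (j v) (dg v)
  all : (∀ v, v ∈ D) ∨ (∀ v ∈ D, par v = 1) ∧ ∀ h w, h * h = 1 → Ac el h w → w ∈ W0

namespace St
variable (H : St el C)
include H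

theorem one : el 1 = 1 := by simpa using H.mul 1 (one_mem _) 1 (one_mem _)

theorem inv (m : p ∈ W0) : el p⁻¹ = (el p)⁻¹ := eq_inv_of_mul_eq_one_left (by rw [← H.mul _ (inv_mem m) _ m]; simp [H.one])

theorem pow (m : p ∈ W0) (n : ℕ) : el (p ^ n) = el p ^ n := by
  induction n <;> simp [pow_succ, H.one, H.mul _ (pow_mem m _) _ m, *]

theorem inj' (m : p ∈ W0) (n : q ∈ W0) (e : el p = el q) : p = q :=
  inv_mul_eq_one.1 (H.inj _ (mul_mem (inv_mem m) n) (by rw [H.mul _ (inv_mem m) _ n, H.inv m, e, inv_mul_cancel]))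

theorem ac (m : p ∈ W0) : Ac el (el p) p := ⟨m.1, fun n => by rw [H.mul _ (mul_mem m n) _ (inv_mem m), H.mul _ m _ n, H.inv m]⟩

theorem uq (m : Ac el h w) (e : h = 1) : w = 1 ∨ w = -1 :=
  cen m.1 fun q n => mul_inv_eq_iff_eq_mul.1 (H.inj' (conj_mem0 m.1 n) n (by simpa [e] using (m.app n).symm))

theorem uq' (m : Ac el h w) (n : Ac el h x) : x = w ∨ x = -w :=
  (H.uq (m.inv.mul n) (by simp)).imp (fun e => (inv_mul_eq_one.1 e).symm) fun e => by rw [← mul_neg_one, ← e, mul_inv_cancel_left]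

theorem zC : el (-1) ∈ C := (H.hC _).2 (by simpa using (H.ac neg_mem0).neg)

theorem z2 : el (-1) * el (-1) = 1 := by rw [← H.mul _ neg_mem0 _ neg_mem0]; simp [H.one]

theorem zo : orderOf (el (-1)) = 2 := orderOf_eq_two_iff.2 ⟨fun e => neg_ne 1 (H.inj _ neg_mem0 e), H.z2⟩

theorem cm (m : c ∈ C) (n : p ∈ W0) : Commute c (el p) := mul_inv_eq_iff_eq_mul.1 (by simpa using ((H.hC c).1 m).app n)

theorem cC (m : Ac el h w) (n : c ∈ C) : h * c * h⁻¹ ∈ C := (H.hC _).2 (by simpa using m.cj ((H.hC c).1 n))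

theorem dec (m : Ac el h w) (n : Ac el g w) : ∃ c ∈ C, g = h * c :=
  ⟨_, (H.hC _).2 (by simpa using m.inv.mul n), (mul_inv_cancel_left _ _).symm⟩

theorem cjk {k} (m : Ac el h (dg v)) (n : k ∈ KK) : el (pm k) * h * (el (pm k))⁻¹ = el (dg (pa k v * v)) * h := by
  have t := pm_mem0 n
  rw [map_mul, ← pm_conj, ← inv_eq_of_mul_eq_one_right (dg_sq v), ← H.inv t, ← mul_inv_eq_iff_eq_mul, mul_assoc, mul_assoc,
    ← mul_assoc h, m.app (inv_mem t), ← H.mul _ t _ (conj_mem0 m.mem (inv_mem t)), inv_eq_of_mul_eq_one_right (dg_sq v)]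
  simp only [mul_assoc]

theorem C0 {P : Subgroup G} (m : IsPGroup 2 P) : IsCyclic ↥(P ⊓ C) := by
  obtain ⟨R, e⟩ := (m.comap_subtype (K := C)).exists_le_sylow
  have := H.cyc R
  have : IsCyclic (P.subgroupOf C) := isCyclic_of_injective _ (inclusion_injective e)
  exact subgroupOf_map_subtype P C ▸ isCyclic_of_surjective _ (C.subtype.subgroupMap_surjective _)

theorem C1 (m : c ∈ C) (e : c * c = 1) : c = 1 ∨ c = el (-1) := or_iff_not_imp_left.2 fun n =>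
  eq_of_isCyclic_of_orderOf_two (H.C0 (isPGroup_closure_pair (k := 1) e H.z2 (by simp [(H.cm m neg_mem0).mul_pow, sq, e, H.z2])))
    ⟨subset_closure (by simp), m⟩ ⟨subset_closure (by simp), H.zC⟩ (orderOf_eq_two_iff.2 ⟨n, e⟩) H.zo

theorem C2 (m : a ∈ C) (n : c ∈ C) (p : Odd (orderOf a)) (q : Odd (orderOf c)) : Odd (orderOf (a * c)) := by
  obtain ⟨R⟩ : Nonempty (Sylow 2 C) := inferInstance
  obtain ⟨φ, N⟩ : ∃ φ : C →* R, ¬2 ∣ Nat.card φ.ker := ⟨_, MonoidHom.not_dvd_card_ker_transferSylow R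
    ((H.cyc R).normalizer_le_centralizer ((Nat.minFac_eq_two_iff _).2 (H.zo ▸ orderOf_dvd_natCard _ H.zC)))⟩
  have k {a} (m : a ∈ C) (p : Odd (orderOf a)) : ⟨a, m⟩ ∈ φ.ker := by
    obtain ⟨n, e⟩ := IsPGroup.iff_orderOf.1 R.2 (φ ⟨a, m⟩)
    exact orderOf_eq_one_iff.1 (Nat.eq_one_of_dvd_coprimes ((Nat.coprime_two_right.2 p).pow_right n)
      ((orderOf_map_dvd _ _).trans (orderOf_mk _ _).dvd) e.dvd)
  exact odd_card_iff_not_two_dvd.2 fun d => N
    (d.trans ((orderOf_mk _ (mul_mem m n)).symm.dvd.trans (orderOf_dvd_natCard _ (mul_mem (k m p) (k n q)))))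

theorem sqc (m : p ∈ W0) (n : c ∈ C) (e : el p * c * (el p * c) = 1) : p * p = 1 ∧ c * c = 1 ∨ p * p = -1 ∧ c * c = el (-1) := by
  rw [(H.cm n m).mul_mul_mul_comm, ← H.mul _ m _ m] at e
  exact (H.uq (mul_one (p * p) ▸ (H.ac (mul_mem m m)).mul ((H.hC _).1 (mul_mem n n)) :) e).imp
    (fun f => ⟨f, by simpa [f, H.one] using e⟩) fun f => ⟨f, mul_left_cancel (by rw [H.z2, ← f, e])⟩

theorem inL (m : Ac el a x) (n : Ac el y w) (e : y ^ 3 = 1) (f : ⁅a, y⁆ * ⁅a, y⁆ = 1) : ∃ p ∈ W0, ⁅a, y⁆ = el p := by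
  wlog t : w ^ 3 = 1 generalizing w
  · exact this n.neg (by rw [Odd.neg_pow (by decide), pow_three', (H.uq ((n.mul n).mul n) (pow_three' y ▸ e)).resolve_left (pow_three' w ▸ t), neg_neg])
  have w0 : w ∈ W0 := by_contra fun k =>
    k ((mul_mem_cancel_left (mul_mem0 n.1 n.1 k k)).1 (by rw [← pow_three', t]; exact one_mem _))
  obtain ⟨c, mc, rfl⟩ := H.dec (H.ac w0) n
  have c3 : Odd (orderOf c) := Odd.of_dvd_nat (by decide : Odd 3) (orderOf_dvd_of_pow_eq_one (by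
    rwa [(H.cm mc w0).symm.mul_pow, ← H.pow w0, t, H.one, one_mul] at e))
  have k := mul_mem (conj_mem0 m.mem w0) (inv_mem w0)
  have k' := mul_mem (H.cC m mc) (inv_mem mc)
  have o := H.C2 (H.cC m mc) (inv_mem mc) (by rwa [orderOf_conj']) (by rwa [orderOf_inv])
  have g : ⁅a, el w * c⁆ = el (x * w * x⁻¹ * w⁻¹) * (a * c * a⁻¹ * c⁻¹) := by
    rw [H.mul _ (conj_mem0 m.mem w0) _ (inv_mem w0), mul_assoc (el _), ← H.cm k' (inv_mem w0), H.inv w0, ← m.app w0]; group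
  have : _ = _ := eq_one_of_odd_of_mul_self o (eq_one_of_odd_of_mul_self (H.C2 k' k' o o) (by
    rcases H.sqc k k' (g ▸ f) with b | b <;> rw [b.2] <;> simp [H.z2]))
  exact ⟨_, k, by rw [g, this, mul_one]⟩

theorem R1 (b : Bz el s) (m : r ∈ C) (e : r * r = el (-1)) : ¬Commute r s := fun n => by
  obtain ⟨g, b1⟩ := isConj_iff.1 b.1
  let θ := MulAut.conj g
  have bz : θ s = el (-1) := b1
  obtain ⟨w, a⟩ := H.act (θ (el (-1))) (bz ▸ b.2.1.symm.map θ)
  obtain ⟨x, d⟩ := H.act (θ r) (bz ▸ n.map θ)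
  have k {l} (m : l ∈ W0) (e : w * l = l * w) : ∃ x, Ac el (θ.symm (el l)) x := H.act _ (by
    simpa using (Commute.map (mul_inv_eq_iff_eq_mul.1 ((a.app m).trans (by rw [e, mul_inv_cancel_right]))) θ.symm).symm)
  have := r1w a.mem d.mem (H.uq (a.mul a) (by rw [← map_mul, H.z2, map_one])) (H.uq' a (by simpa [← map_mul, e] using d.mul d))
    fun l ml y my h1 h2 h3 h4 => by
      obtain ⟨_, p1⟩ := k ml h1
      obtain ⟨_, p2⟩ := k my h2
      have mc : ⁅l, y⁆ ∈ W0 := mul_mem (mul_mem (mul_mem ml my) (inv_mem ml)) (inv_mem my)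
      have ec : ⁅θ.symm (el l), θ.symm (el y)⁆ = θ.symm (el ⁅l, y⁆) := by
        rw [← map_commutatorElement, commutatorElement_def, commutatorElement_def, (H.ac ml).app my, ← H.inv my,
          ← H.mul _ (conj_mem0 ml.1 my) _ (inv_mem my)]
      obtain ⟨p, p3, p4⟩ := H.inL p1 p2 (by rw [← map_pow, ← H.pow my, h3, H.one, map_one])
        (by rw [ec, ← map_mul, ← H.mul _ mc _ mc, h4, H.one, map_one])
      exact mul_inv_eq_iff_eq_mul.1 (H.inj' (conj_mem0 d.mem mc) mc (by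
        rw [← d.app mc, ← θ.apply_symm_apply (el _), ← ec, p4, ((H.cm m p3).map θ).eq, mul_inv_cancel_right]))
  rcases H.C1 (c := θ (el (-1))) ((H.hC _).2 (this.elim (· ▸ a) fun e => by simpa [e] using a.neg))
    (by rw [← map_mul, H.z2, map_one]) with f | f
  · exact ne_one_of_orderOf H.zo (θ.injective (f.trans θ.map_one.symm))
  · exact b.2.2 (θ.injective (bz.trans f.symm))

theorem b2 (b : Bz el s) : s * s = 1 := mul_self_of_orderOf ((orderOf_eq_of_isConj b.1).trans H.zo)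

omit H [Finite G] in
theorem bc (b : Bz el s) (m : Ac el h w) : Bz el (h * s * h⁻¹) :=
  ⟨(isConj_iff.2 ⟨h, rfl⟩).symm.trans b.1, (m.zc.mul_left b.2.1).mul_left m.inv.zc, fun e =>
    b.2.2 ((MulAut.conj h).injective (e.trans (mul_inv_eq_iff_eq_mul.2 m.zc).symm))⟩

theorem noR (b : Bz el s) (m : r ∈ C) : r * r ≠ el (-1) := fun e => by
  have o {s w} (b : Bz el s) (a : Ac el s w) : w ∉ W0 := fun n => by
    obtain ⟨c, k, rfl⟩ := H.dec (H.ac n) a
    rcases H.sqc n k (H.b2 b) with f | f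
    · exact H.R1 b m e ((H.cm m n).mul_right (by rcases H.C1 k f.2 with rfl | rfl; exacts [.one_right _, H.cm m neg_mem0]))
    · exact H.R1 b k f.2 ((H.cm k n).mul_right (.refl _))
  have bz {s} (b : Bz el s) : IsConj (s * el (-1)) (el (-1)) := by
    let Z := centralizer {el (-1)}
    have mZ {h} : h ∈ Z ↔ Commute h (el (-1)) := mem_centralizer_singleton_iff
    obtain ⟨P, hP⟩ := (isPGroup_zpowers_of_mul_self (x := (⟨s, mZ.2 b.2.1⟩ : Z)) (Subtype.ext (H.b2 b))).exists_le_sylow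
    obtain ⟨⟨t, t1⟩, t2⟩ := exists_conj_elt_mem_sylow P (x := ⟨r, mZ.2 (H.cm m neg_mem0)⟩) (k := 2)
      (Subtype.ext (show r ^ (2 * 2) = 1 by rw [pow_mul, sq, sq, e, H.z2]))
    obtain ⟨w, a⟩ := H.act t (mZ.1 t1)
    obtain ⟨x, d⟩ := H.act s b.2.1
    have m1 := H.cC a m
    have e1 : t * r * t⁻¹ * (t * r * t⁻¹) = el (-1) := by rw [conj_mul, e, a.zc.eq, mul_inv_cancel_right]
    have s1 : s ∈ _ := mem_map_of_mem Z.subtype (hP (mem_zpowers _))
    replace t2 : t * r * t⁻¹ ∈ _ := mem_map_of_mem Z.subtype t2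
    generalize t * r * t⁻¹ = r at *
    have := H.C0 (P.2.map Z.subtype)
    have c : Commute r⁻¹ (s * r * s⁻¹) := Commute.inv_left (congrArg Subtype.val ((IsCyclic.commGroup
      (α := ↥(P.1.map Z.subtype ⊓ C))).mul_comm ⟨r, t2, m1⟩ ⟨_, mul_mem (mul_mem s1 t2) (inv_mem s1 :), H.cC d m1⟩))
    rcases H.C1 (mul_mem (inv_mem m1) (H.cC d m1)) (by
      rw [c.symm.mul_mul_mul_comm, conj_mul, e1, b.2.1.eq, ← e1]; group) with n | n
    · exact absurd (mul_inv_eq_iff_eq_mul.1 (inv_mul_eq_one.1 n).symm).symm (H.R1 b m1 e1)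
    · exact (isConj_iff.2 ⟨r, by rw [b.2.1.eq, ← n]; group⟩).trans b.1
  obtain ⟨w, a⟩ := H.act s b.2.1
  obtain ⟨p, p1, v, p2⟩ := (cls a.mem).1 ((H.uq (a.mul a) (H.b2 b)).resolve_right fun n => by
    obtain ⟨p, p1, p2⟩ := (cls a.mem).2 n
    have := conj_mem0 (inv_mem p1) (mul_mem (dg_mem0.2 (show par (vec 170) = 1 by decide)) (pm_mem0 tt_mem))
    exact o b a (by rw [← p2] at this; simpa [mul_assoc] using this))
  replace b := bc b (H.ac p1)
  replace a := (H.ac p1).cj a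
  rw [p2] at a
  generalize el p * s * (el p)⁻¹ = s at *
  have t := pm_mem0 tt_mem
  have b' := bc b (H.ac t)
  obtain ⟨n1, n2, n3⟩ := (by decide +kernel : ∀ v, par v ≠ 1 → pa tt v * v ≠ 1 ∧ -(pa tt v * v) ≠ 1 ∧ par (pa tt v * v) = 1) v
    (mt dg_mem0.2 (o b a))
  replace n3 := dg_mem0.2 n3
  rw [H.cjk a tt_mem] at b'
  have c : Commute (el (dg (pa tt v * v))) s := (mul_inv_eq_iff_eq_mul.1 ((a.app n3).trans (by rw [dg_comm, mul_inv_cancel_right]))).symm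
  obtain ⟨g, f⟩ := isConj_iff.1 b.1
  let θ := MulAut.conj g
  have k {t} (p : IsConj t (el (-1))) (q : Commute t s) (n : t ≠ s) : Bz el (θ t) :=
    ⟨(isConj_iff.2 ⟨g, rfl⟩).symm.trans p, f ▸ q.map θ, f ▸ θ.injective.ne n⟩
  have k1 := k (.refl _) b.2.1.symm b.2.2.symm
  have k2 := k b'.1 (c.mul_left (.refl _)) fun e => n1 (dg_inj (by rw [H.inj _ n3 (by simpa using e), map_one]))
  have k3 := k (bz b') ((c.mul_left (.refl _)).mul_left b.2.1.symm) fun e => n2 (dg_inj (by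
    rw [mul_assoc, b.2.1.eq, ← mul_assoc, ← H.mul _ n3 _ neg_mem0, mul_eq_right] at e
    rw [dg_neg, ← mul_neg_one, H.inj _ (mul_mem n3 neg_mem0) e, map_one]))
  obtain ⟨w1, a1⟩ := H.act _ k1.2.1
  obtain ⟨w2, a2⟩ := H.act _ k2.2.1
  exact o k3 (map_mul θ _ _ ▸ a2.mul a1) (mul_mem0 a2.mem a1.mem (o k2 a2) (o k1 a1))

variable (N : ∀ r ∈ C, r * r ≠ el (-1)) {D : Subgroup V} {j : V → G}
include N

theorem odd (m : c ∈ C) : ∃ t, c ^ (2 * t + 1) = 1 ∨ c ^ (2 * t + 1) = el (-1) := by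
  obtain ⟨k, _, ⟨t, rfl⟩, e⟩ := Nat.exists_eq_two_pow_mul_odd (orderOf_pos c).ne'
  have := pow_orderOf_eq_one c
  rw [e, mul_comm, pow_mul] at this
  refine ⟨t, ?_⟩
  replace m := pow_mem m (2 * t + 1)
  clear e
  generalize c ^ (2 * t + 1) = c at *
  induction k generalizing c with
  | zero => exact .inl (by simpa using this)
  | succ k ih => exact H.C1 m ((ih _ (by rwa [← sq, ← pow_mul, ← pow_succ']) (mul_mem m m)).resolve_right (N c m))

theorem inn (e : h * h = 1) (m : Ac el h w) (n : w ∈ W0) : w * w = 1 ∧ (h = el w ∨ h = el (-w)) := by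
  obtain ⟨c, k, rfl⟩ := H.dec (H.ac n) m
  obtain ⟨a, b⟩ := (H.sqc n k e).resolve_right fun f => N c k f.2
  exact ⟨a, (H.C1 k b).imp (by simp +contextual) fun f => by rw [f, ← H.mul _ n _ neg_mem0, mul_neg_one]⟩

theorem dia (e : h * h = 1) (m : Ac el h w) : w * w = 1 ∧ ∃ p ∈ W0, ∃ v, Ac el (el p * h * (el p)⁻¹) (dg v) := by
  have : w * w = 1 := by_contra fun f => by
    obtain ⟨p, p1, p2⟩ := (cls m.mem).2 ((H.uq (m.mul m) e).resolve_left f)
    have := conj_mem0 (inv_mem p1) (mul_mem (dg_mem0.2 (show par (vec 170) = 1 by decide)) (pm_mem0 tt_mem))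
    exact f (H.inn N e m (by rw [← p2] at this; simpa [mul_assoc] using this)).1
  obtain ⟨p, p1, v, p2⟩ := (cls m.mem).1 this
  exact ⟨this, p, p1, v, by rw [← p2]; exact (H.ac p1).cj m⟩

theorem exJ : ∃ D j, Jd el D j := by
  by_cases e : ∀ h w, h * h = 1 → Ac el h w → w ∈ W0
  · exact ⟨par.ker, fun v => el (dg v), fun v m => ⟨m, rfl⟩, fun u m v n => by
      rw [map_mul, H.mul _ (dg_mem0.2 m) _ (dg_mem0.2 n)], fun v m => H.ac (dg_mem0.2 m), .inr ⟨fun v m => m, e⟩⟩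
  push Not at e
  obtain ⟨h, w, e, a, n⟩ := e
  obtain ⟨-, p, p1, v, b⟩ := H.dia N e a
  have pv : par v ≠ 1 := fun f => n (by
    have := conj_mem0 (inv_mem p1.1) (dg_mem0.2 f)
    rcases H.uq' b ((H.ac p1).cj a) with t | t
    · simpa [← t, mul_assoc] using this
    · simpa [← neg_eq_iff_eq_neg.2 t, mul_assoc] using mul_mem this neg_mem0)
  replace e : el p * h * (el p)⁻¹ * (el p * h * (el p)⁻¹) = 1 := by rw [conj_mul, e]; simp
  generalize el p * h * (el p)⁻¹ = s at *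
  have m (u : V) : dg (u * if par u = 1 then 1 else v) ∈ W0 := dg_mem0.2 (by
    split_ifs with f
    · simpa
    · rw [map_mul, Int.units_ne_iff_eq_neg.1 f, Int.units_ne_iff_eq_neg.1 pv]; rfl)
  have ac (u : V) : Ac el (if par u = 1 then 1 else s) (dg (if par u = 1 then 1 else v)) := by
    split_ifs; exacts [⟨dg_mem _, by simp⟩, b]
  refine ⟨⊤, fun u => el (dg (u * if par u = 1 then 1 else v)) * if par u = 1 then 1 else s, fun u f => by simp [f], fun u _ t _ => ?_,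
    fun u _ => ?_, .inl fun _ => trivial⟩
  · rw [ite_par e, ite_par (vsq v), mul_mul_mul_comm, map_mul, H.mul _ (m u) _ (m t)]
    exact Commute.mul_mul_mul_comm (mul_inv_eq_iff_eq_mul.1 (((ac u).app (m t)).trans (by rw [dg_comm, mul_inv_cancel_right]))).symm _ _
  · have := (H.ac (m u)).mul (ac u)
    rwa [← map_mul, mul_assoc, vsq, mul_one] at this

variable (J : Jd el D j)
include J

omit N in
theorem jz (m : v ∈ D) : j (-1) = el (-1) ∧ -v ∈ D ∧ j (-v) = j v * el (-1) := by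
  obtain ⟨a, b⟩ := J.ev (-1) (by decide)
  rw [dg_neg_one] at b
  exact ⟨b, mul_neg_one v ▸ mul_mem m a, by rw [← mul_neg_one, J.mul _ m _ a, b]⟩

theorem fr : Fr D j := by
  have c1 {k} (m : k ∈ KK) (v) (n : v ∈ D) : el (pm k) * j v * (el (pm k))⁻¹ = j (pa k v) := by
    obtain ⟨a, b⟩ := J.ev (pa k v * v) (by rw [map_mul, par_pa, Int.units_mul_self])
    rw [H.cjk (J.ac v n) m, ← b, ← J.mul _ a _ n, mul_assoc, vsq, mul_one]
  refine ⟨fun v m => (J.ev v m).1, J.mul, fun v m e => (H.uq (J.ac v m) e).elim (fun f => dg_inj (f.trans dg.map_one.symm))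
    fun f => absurd ((H.jz J m).1.symm.trans (dg_inj (f.trans dg_neg_one.symm) ▸ e)) (ne_one_of_orderOf H.zo),
    fun k m => ⟨_, c1 m⟩, fun γ m z => ?_⟩
  obtain ⟨w, a⟩ := H.act γ ((H.jz J (one_mem _)).1 ▸ mul_inv_eq_iff_eq_mul.1 z)
  obtain ⟨t, k, mk, rfl⟩ := mono' a.mem fun u p => by
    obtain ⟨v, b, e⟩ := inv_mem m u (J.ev u p).1
    rcases H.uq' (J.ac v b) (e ▸ a.inv.cj (J.ac u (J.ev u p).1)) with f | f
    exacts [⟨v, by rw [← f]; group⟩, ⟨-v, by rw [dg_neg, ← f]; group⟩]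
  refine ⟨k, mk, fun v n => ?_⟩
  rcases J.all with f | f
  · obtain ⟨c, mc, rfl⟩ := H.dec ((J.ac t (f t)).mul (H.ac (pm_mem0 mk))) a
    have e (v) : j t * el (pm k) * j v * (j t * el (pm k))⁻¹ = j (pa k v) := by
      rw [← mul_inv_cancel_right (j (pa k v)) (j t), ← J.mul _ (f _) _ (f _), mul_comm _ t, J.mul _ (f _) _ (f _), ← c1 mk v (f v)]; group
    obtain ⟨u, -, g⟩ := (mul_mem_cancel_left (show _ ∈ NZ D j from fun v _ => ⟨_, f _, e v⟩)).1 m v n
    suffices Commute c (j v) by rw [← e, mul_assoc _ c, this]; group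
    have := ((H.hC c).1 mc).cj (J.ac v n)
    rw [g, one_mul, inv_one, mul_one] at this
    rcases H.uq' this (J.ac u (f u)) with e | e
    · exact mul_inv_eq_iff_eq_mul.1 (dg_inj e ▸ g)
    rw [dg_inj (e.trans dg_neg.symm), (H.jz J n).2.2] at g
    obtain ⟨t, ht⟩ := H.odd N mc
    refine mem_centralizer_singleton_iff.1 ((mul_mem_cancel_left (pow_mem (x := c * c) (mem_centralizer_singleton_iff.2 ?_) t)).1 ?_)
    · rw [mul_assoc, mul_inv_eq_iff_eq_mul.1 g, ← mul_assoc, ← mul_assoc, mul_inv_eq_iff_eq_mul.1 g, mul_assoc _ c, H.cm mc neg_mem0,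
        ← mul_assoc, mul_assoc (j v), H.z2, mul_one, mul_assoc]
    · rw [← sq, ← pow_mul, ← pow_succ]
      rcases ht with e | e <;> rw [e]
      exacts [one_mem _, mem_centralizer_singleton_iff.2 (J.ac v n).zc.symm]
  · have p := f.1 v n
    rw [(J.ev v p).2, (J.ev _ (par_pa.trans p)).2, a.app (dg_mem0.2 p), ← mul_inv_cancel_right (dg (pa k v)) (dg t), dg_comm,
      ← pm_conj, mul_inv_rev]
    simp only [mul_assoc]

theorem toJ (e : h * h = 1) (a : Ac el h (dg v)) (m : v ∈ D) : ∃ c ∈ C, ∃ u ∈ D, c * h * c⁻¹ = j u := by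
  have mc {v} (m : v ∈ D) (a : Ac el h (dg v)) : h * j v ∈ C := (H.hC _).2 (dg_sq v ▸ a.mul (J.ac v m))
  have k {v t} (m : v ∈ D) (a : Ac el h (dg v)) (f : (h * j v) ^ (2 * t + 1) = 1) : ∃ c ∈ C, ∃ u ∈ D, c * h * c⁻¹ = j u :=
    let ⟨n, g⟩ := exists_pow_conj_of_odd e ((H.fr N J).sq m) (Odd.of_dvd_nat ⟨t, rfl⟩ (orderOf_dvd_of_pow_eq_one f))
    ⟨_, pow_mem (mc m a) n, v, m, g⟩
  obtain ⟨t, f | f⟩ := H.odd N (mc m a)
  · exact k m a f
  · exact k (t := t) (H.jz J m).2.1 (dg_neg ▸ a.neg) (by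
      rw [(H.jz J m).2.2, ← mul_assoc, (H.cm (mc m a) neg_mem0).mul_pow, f, ← pow_succ', pow_succ, pow_succ, mul_assoc, H.z2,
        pow_mul, sq, H.z2, one_pow, one_mul])

theorem caseF (f : ∀ d ∈ D, ∃ v, Ac el (g * j d * g⁻¹) (dg v)) : ∃ c ∈ C, c * g ∈ NZ D j := by
  have F := H.fr N J
  have sq {d} (m : d ∈ D) : g * j d * g⁻¹ * (g * j d * g⁻¹) = 1 := by rw [conj_mul, F.sq m]; simp
  have ev {c d v} (mc : c ∈ C) (m : d ∈ D) (a : Ac el (g * j d * g⁻¹) (dg v)) (p : par v = 1) :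
      ∃ u ∈ D, c * g * j d * (c * g)⁻¹ = j u := by
    obtain ⟨u, p, e⟩ : ∃ u, par u = 1 ∧ g * j d * g⁻¹ = el (dg u) := ((H.inn N (sq m) a (dg_mem0.2 p)).2).elim (⟨v, p, ·⟩)
      fun e => ⟨-v, by rw [← mul_neg_one, map_mul, p]; decide, dg_neg ▸ e⟩
    exact ⟨u, (J.ev u p).1, by rw [(J.ev u p).2, ← mul_inv_cancel_right (el _) c, ← H.cm mc (dg_mem0.2 p), ← e]; group⟩
  by_cases o : ∃ d ∈ D, ∃ v, Ac el (g * j d * g⁻¹) (dg v) ∧ par v ≠ 1
  · obtain ⟨d0, m0, v0, a0, p0⟩ := o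
    obtain ⟨c, mc, u0, n0, e0⟩ := H.toJ N J (sq m0) a0 (J.all.elim (· _) fun t => (p0 (dg_mem0.1 (t.2 _ _ (sq m0) a0))).elim)
    refine ⟨c, mc, fun d m => ?_⟩
    obtain ⟨v, a⟩ := f d m
    by_cases p : par v = 1
    · exact ev mc m a p
    obtain ⟨u, n, e⟩ := ev mc (mul_mem m m0) (v := v * v0) (by rw [J.mul _ m _ m0, ← conj_mul, map_mul]; exact a.mul a0)
      (by rw [map_mul, Int.units_ne_iff_eq_neg.1 p, Int.units_ne_iff_eq_neg.1 p0]; rfl)
    exact ⟨_, mul_mem n n0, by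
      rw [J.mul _ n _ n0, ← e, ← e0, J.mul _ m _ m0]; conv_lhs => rw [← mul_one (j d), ← F.sq m0]
      group⟩
  · exact ⟨1, one_mem _, fun d m => let ⟨v, a⟩ := f d m; ev (one_mem _) m a (by_contra fun p => o ⟨d, m, v, a, p⟩)⟩

theorem caseA (e : ∀ v ∈ D, par v = 1) (f : ∀ d ∈ D, ∃ v, par v = 1 ∧ cA * dg v * cA⁻¹ ∈ W0 ∧
    Ac el (g * j d * g⁻¹) (cA * dg v * cA⁻¹)) : False := by
  have F := H.fr N J
  let α := MulAut.conj cA
  let θ := (MulAut.conj g).symm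
  choose φ p1 p2 using fun d : D => show ∃ v : D, α (dg v) ∈ W0 ∧ θ (el (α (dg v))) = j d from by
    obtain ⟨v, p, m, a⟩ := f d d.2
    rcases (H.inn N (by rw [conj_mul, F.sq d.2]; simp) a m).2 with t | t
    · exact ⟨⟨v, F.ev v p⟩, m, (MulEquiv.symm_apply_eq _).2 t.symm⟩
    · have : α (dg (-v)) = -(cA * dg v * cA⁻¹) := by simp [α, dg_neg]
      exact ⟨⟨-v, (H.jz J (F.ev v p)).2.1⟩, by rw [this, ← mul_neg_one]; exact mul_mem m neg_mem0,
        (MulEquiv.symm_apply_eq _).2 (this ▸ t.symm)⟩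
  have sj : φ.Surjective := Finite.surjective_of_injective fun d d' t => Subtype.ext (F.inj' d.2 d'.2 (by rw [← p2, t, p2]))
  have m0 {u} (m : u ∈ D) : α (dg u) ∈ W0 := let ⟨d, t⟩ := sj ⟨u, m⟩; by simpa [t] using p1 d
  obtain ⟨a, b, c, n1, n2, n3, n4⟩ := (by decide +kernel : ∀ v : V, ∃ a b c, a ≠ b ∧ b ≠ c ∧ pa (swap a b * swap b c) v = v ∧
    swap a b * swap b c * (swap a b * swap b c) ≠ 1) (φ ⟨-1, F.ev _ (by decide)⟩)
  have my : α (pm (swap a b * swap b c)) ∈ W0 := by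
    obtain ⟨n, s⟩ := cA_swap n1
    obtain ⟨m, t⟩ := cA_swap n2
    rw [map_mul, map_mul, MulAut.conj_apply, MulAut.conj_apply, s, t, mul_inv_cancel_right, mul_inv_cancel_right]
    exact mul_mem0 (refl_mem n) (refl_mem m) (refl_not n) (refl_not m)
  set σ := swap a b * swap b c
  have k {u} (m : u ∈ D) : θ (el (α (pm σ))) * θ (el (α (dg u))) * (θ (el (α (pm σ))))⁻¹ = θ (el (α (dg (pa σ u)))) := by
    rw [← map_inv, ← map_mul, ← map_mul, (H.ac my).app (m0 m), ← map_inv, ← map_mul, ← map_mul, pm_conj]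
  obtain ⟨l, -, q1, q2, -⟩ := F.rank (γ := θ (el (α (pm σ)))) (fun v m => by
      obtain ⟨d, t⟩ := sj ⟨pa σ (φ ⟨v, m⟩), F.pa_mem (φ _).2⟩
      exact ⟨d, d.2, by rw [← p2 ⟨v, m⟩, k (φ _).2, ← p2, t]⟩) (by rw [← p2 ⟨-1, F.ev _ (by decide)⟩, k (φ _).2, n3]) n1 n2
    (fun u => θ (el (α (dg u)))) fun v m => ⟨φ ⟨v, m⟩, by
      rw [← p2 ⟨v, m⟩, k (φ _).2, map_mul dg, map_mul, H.mul _ (m0 (F.pa_mem (φ _).2)) _ (p1 _), map_mul]⟩
  refine n4 (eq_one_of_pa fun u p => ?_)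
  obtain ⟨d, t⟩ := sj ⟨u, F.ev u p⟩
  obtain rfl : φ d = u := congrArg Subtype.val t
  refine dg_inj (α.injective (H.inj' (m0 (F.pa_mem (φ d).2)) (p1 d) (θ.injective ?_)))
  rw [show pa (σ * σ) (φ d) = pa σ (pa σ (φ d)) from rfl, ← k (F.pa_mem (φ d).2), ← k (φ d).2, p2, q1 _ d.2, q1 _ (F.pa_mem d.2)]
  exact congrArg j (show pa (l * l) d = _ by rw [q2]; rfl)

omit N J in
theorem iso (g : G) (b : Commute (el (-1)) (g * el (-1) * g⁻¹)) : g * el (-1) * g⁻¹ = el (-1) := by_contra fun n => by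
  replace b : Bz el (g * el (-1) * g⁻¹) := ⟨(isConj_iff.2 ⟨g, rfl⟩).symm, b.symm, n⟩
  have N r (m : r ∈ C) := H.noR b m
  obtain ⟨D, j, J⟩ := H.exJ N
  have F := H.fr N J
  obtain ⟨u, mu, b⟩ : ∃ u ∈ D, Bz el (j u) := by
    obtain ⟨w, a⟩ := H.act _ b.2.1
    obtain ⟨-, p, p1, v, a⟩ := H.dia N (H.b2 b) a
    replace b := bc b (H.ac p1)
    obtain ⟨c, mc, u, mu, e⟩ := H.toJ N J (H.b2 b) a (J.all.elim (· _) fun t => F.ev _ (dg_mem0.1 (t.2 _ _ (H.b2 b) a)))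
    exact ⟨u, mu, e ▸ bc b ((H.hC c).1 mc)⟩
  obtain ⟨g, f⟩ := isConj_iff.1 b.1
  have sq {d} (m : d ∈ D) : g * j d * g⁻¹ * (g * j d * g⁻¹) = 1 := by rw [conj_mul, F.sq m]; simp
  choose w hw using fun d : D => H.act (g * j d * g⁻¹) (by
    rw [← f, commute_iff_eq, conj_mul, conj_mul, ← J.mul _ d.2 _ mu, mul_comm, J.mul _ mu _ d.2])
  let U : Subgroup GG :=
    { carrier := {w | ∃ d ∈ D, Ac el (g * j d * g⁻¹) w}, one_mem' := ⟨1, one_mem _, one_mem _, by simp [F.one]⟩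
      mul_mem' := fun ⟨d, m, a⟩ ⟨d', m', a'⟩ => ⟨_, mul_mem m m', by rw [J.mul _ m _ m', ← conj_mul]; exact a.mul a'⟩
      inv_mem' := fun ⟨d, m, a⟩ => ⟨d, m, inv_eq_of_mul_eq_one_right (sq m) ▸ a.inv⟩ }
  have u2 (x) (m : x ∈ U) : x * x = 1 := let ⟨d, m, a⟩ := m; (H.dia N (sq m) a).1
  have cU : Nat.card D ≤ Nat.card U := by
    obtain ⟨i, hi⟩ := Function.ne_iff.1 (show u ≠ 1 from fun e => ne_one_of_orderOf H.zo (by simp [← f, e, F.one]))
    have hb (b : Bool) (d : D) : Ac el (g * j d * g⁻¹) (cond b (w d) (-w d)) := by cases b; exacts [(hw d).neg, hw d]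
    have := Nat.card_le_card_of_injective (fun x : Bool × D => ((⟨_, _, x.2.2, hb x.1 x.2⟩, x.2.1 i) : U × ℤˣ))
      fun ⟨b, d⟩ ⟨b', d'⟩ e => by
        obtain ⟨e1, e2⟩ : cond b (w d) (-w d) = cond b' (w d') (-w d') ∧ d.1 i = d'.1 i := by simpa using e
        have m := mul_mem d.2 d'.2
        suffices d.1 * d'.1 = 1 by
          obtain rfl : d = d' := Subtype.ext (mul_right_cancel (this.trans (vsq d'.1).symm))
          cases b <;> cases b'
          exacts [rfl, (neg_ne _ e1).elim, (neg_ne _ e1.symm).elim, rfl]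
        rcases H.C1 ((H.hC _).2 (by
          rw [J.mul _ d.2 _ d'.2, ← conj_mul, ← u2 _ ⟨_, d.2, hb b d⟩]; exact (hb b d).mul (e1 ▸ hb b' d'))) (sq m) with t | t
        · exact F.inj _ m (by simpa using t)
        · exact (hi (by rw [← F.inj' m mu (by simpa [← f] using t), Pi.mul_apply, e2, Int.units_mul_self]; rfl)).elim
    simp only [Nat.card_prod, Nat.card_eq_fintype_card (α := Bool), Nat.card_eq_fintype_card (α := ℤˣ), Fintype.card_bool,
      Fintype.card_units_int] at this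
    omega
  obtain ⟨p, p1, p2⟩ := syl (U := U) (fun _ ⟨_, _, a⟩ => a.mem) fun x => ⟨1, Subtype.ext (by simpa [pow_two] using u2 x x.2)⟩
  have ac (d) (m : d ∈ D) : Ac el (el p * g * j d * (el p * g)⁻¹) (p * w ⟨d, m⟩ * p⁻¹) := by
    simpa [mul_assoc] using (H.ac p1).cj (hw ⟨d, m⟩)
  have mm (d) (m : d ∈ D) : p * w ⟨d, m⟩ * p⁻¹ ∈ U.map (MulAut.conj p).toMonoidHom := ⟨_, ⟨d, m, hw ⟨d, m⟩⟩, rfl⟩
  have fin (t : ∀ x ∈ U.map (MulAut.conj p).toMonoidHom, ∃ v, x = dg v) : False := by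
    obtain ⟨c, mc, t⟩ := H.caseF N J fun d m => (t _ (mm d m)).imp fun v e => by rw [← e]; exact ac d m
    have := F.comb t
    rw [(H.jz J mu).1] at this
    refine b.2.2 ((MulAut.conj (c * (el p * g))).injective (Eq.trans ?_ this.symm))
    rw [← mul_inv_cancel_right (el (-1)) (c * el p), ← (((H.hC c).1 mc).mul (H.ac p1)).zc, ← f, MulAut.conj_apply]; group
  have B := big (U := U.map (MulAut.conj p).toMonoidHom) (fun _ ⟨x, m, e⟩ => e ▸ p2 x m)
    fun _ ⟨x, m, e⟩ => by rw [← e, ← map_mul, u2 x m, map_one]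
  rw [card_map_of_injective (MulAut.conj p).injective] at B
  rcases J.all with t | t
  · exact fin ((B false (by simp) (le_trans (by rw [(eq_top_iff' D).2 t]; simp) cU)).resolve_right (by simp))
  have m0 : U.map (MulAut.conj p).toMonoidHom ≤ W0 := fun _ ⟨x, ⟨d, m, a⟩, e⟩ => e ▸ conj_mem0 p1.1 (t.2 _ _ (sq m) a)
  rcases B true (fun _ => m0) (le_trans ((show 128 = Nat.card par.ker by rw [Nat.card_eq_fintype_card]; decide +kernel).trans_le
    (card_le_of_le F.ev)) cU) with s | s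
  · exact fin s
  · exact H.caseA N J t.1 fun d m => (s.2 _ (mm d m)).imp fun v e => by
      rw [← e.2, mul_inv_cancel_right]; exact ⟨e.1, m0 (mm d m), ac d m⟩

end St

theorem main (hO : oddCore G = ⊥) {L : Subgroup G} (hL : IsStandardSubgroup L) (ψ : L ≃* W0)
    (hR : ∀ R : Sylow 2 (centralizer (L : Set G)), IsCyclic R) : L.Normal := by
  classical
  let el : GG → G := fun p => if m : p ∈ W0 then ψ.symm ⟨p, m⟩ else 1
  have e {p} (m : p ∈ W0) : el p = ψ.symm ⟨p, m⟩ := dif_pos m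
  have hC (c) : c ∈ centralizer (L : Set G) ↔ Ac el c 1 := ⟨fun m => ⟨one_mem _, fun n => by
      rw [mul_inv_eq_iff_eq_mul, e n, ← m _ (ψ.symm _).2]; simp [e n]⟩, fun a l m => by
    have := a.app (ψ ⟨l, m⟩).2
    simp only [one_mul, inv_one, mul_one, e (ψ ⟨l, m⟩).2, Subtype.coe_eta, ψ.symm_apply_apply] at this
    exact (mul_inv_eq_iff_eq_mul.1 this).symm⟩
  have mul (p) (m : p ∈ W0) (q) (n : q ∈ W0) : el (p * q) = el p * el q := by
    rw [e m, e n, e (mul_mem m n), ← coe_mul, ← map_mul]; rfl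
  have inj (p) (m : p ∈ W0) (f : el p = 1) : p = 1 :=
    congrArg Subtype.val ((map_eq_one_iff _ ψ.symm.injective).1 (Subtype.ext ((e m).symm.trans f)))
  have zC : el (-1) ∈ centralizer (L : Set G) := (hC _).2 ⟨one_mem _, fun {p} n => by
    rw [mul_inv_eq_iff_eq_mul, ← mul _ neg_mem0 _ n, ← mul _ (by simpa) _ neg_mem0]; simp⟩
  have zo : orderOf (el (-1)) = 2 := orderOf_eq_two_iff.2 ⟨fun e => neg_ne 1 (inj _ neg_mem0 e), by
    rw [← mul _ neg_mem0 _ neg_mem0]; simp [e (one_mem _), show (⟨1, _⟩ : W0) = 1 from rfl]⟩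
  have nz (h) (m : Commute h (el (-1))) : h ∈ normalizer (L : Set G) := by
    rw [hL.2.2.2]
    exact by_contra fun n => (hL.2.1.2 h n).not_two_dvd_nat
      (zo ▸ orderOf_dvd_natCard _ (mem_inf.2 ⟨zC, _, zC, mul_inv_eq_iff_eq_mul.2 m⟩))
  have H : St el (centralizer L) := ⟨mul, inj, fun h m => by
    obtain ⟨w, a⟩ := aut (ψ.symm.trans ((L.normalizerMonoidHom ⟨h, nz h m⟩).trans ψ))
    refine ⟨w, w.2, fun {p} n => ?_⟩
    have : ψ (L.normalizerMonoidHom ⟨h, nz h m⟩ (ψ.symm ⟨p, n⟩)) = ⟨_, conj_mem0 w.2 n⟩ := DFunLike.congr_fun a ⟨p, n⟩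
    rw [e n, e (conj_mem0 w.2 n), ← this, ψ.symm_apply_apply]
    rfl, hC, hR⟩
  exact normalizer_eq_top_iff.1 (eq_top_iff.2 fun g _ => nz g (by
    have := ZStar.zstar ⟨zo, H.iso⟩ g
    rw [hO, mem_bot] at this
    exact (commutatorElement_eq_one_iff_commute.1 this).symm))

end Cfsg.Lib.E8W
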