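import Cfsg.Agent.Lib.E8W.Gen
import Cfsg.Agent.S2098
import Cfsg.Agent.S2607
import Cfsg.Agent.S0296

/-!
# The double covers of `O₈⁺(2)` and their automorphisms (helper21)
-/

set_option autoImplicit false

namespace Cfsg.Lib.E8W

open Cfsg.Lib.Calc Cfsg.Lib.Mult Cfsg.Lib.Schur Subgroup Matrix Equiv
open scoped commutatorElement

variable {g h w x : GG} {T : List (List ℕ)} {p q : W0}

/-- the simple group -/
abbrev XX := POmega K2 (quadFormPlus 4 K2)

theorem mem_ctr : p ∈ center W0 ↔ p.1 = 1 ∨ p.1 = -1 :=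
  ⟨fun h => cen p.2.1 fun g m => congrArg Subtype.val (mem_center_iff.1 h ⟨g, m⟩).symm,
    fun h => mem_center_iff.2 fun g => Subtype.ext (by rcases h with h | h <;> simp [h])⟩

theorem neg_ne (g : GG) : -g ≠ g := fun e => absurd (dg_inj (u := -1) (v := 1) (by
  rw [dg_neg_one, map_one]; exact mul_right_cancel (b := g) (by simpa using e))) (by decide)

/-- the code of `-1` -/
noncomputable def cn : ℕ := enc fun i j => if i = j then 4 else 0

theorem cd_neg : Cd (-1) cn := .enc fun i j => by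
  simp only [Units.val_neg, Units.val_one, Matrix.neg_apply, one_apply]; split_ifs <;> rfl

/-- the code of `1` or `-1` -/
noncomputable def pmOK (c : ℕ) : Bool := forceB c fun c => bor (Nat.beq c (cl cr [])) (Nat.beq c cn)

theorem Cd.one {c : ℕ} (a : Cd p.1 c) (h : pmOK c = true) : (p : W0 ⧸ center W0) = 1 := by
  rw [pmOK, forceB_eq, bor_eq_true] at h
  exact (QuotientGroup.eq_one_iff _).2 (mem_ctr.2 (h.imp (a.ext (.list cd_refl [])) (a.ext cd_neg)))

/-- the two words commute up to the sign `s` -/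
noncomputable def cmOK (X : ℕ) (s : Bool) (a b : List ℕ) : Bool := forceB (cl (lc X) a) fun a => forceB (cl (lc X) b) fun b =>
  Nat.beq (mu a b) (mu (mu (cnd s cn (cl cr [])) b) a)

/-- generators that satisfy the relations up to sign -/
structure Tb (T : List (List ℕ)) (s t : Bool) : Prop where
  len : T.length = 8
  ev : ∀ l ∈ T, Even l.length
  zero : T.getD 0 [] = []
  st : s = true ∨ t = true
  chk : (forceB (pk T) fun X => band (band (allLt 8 fun c => pmOK (mu (lc X c) (lc X c)))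
    (O8p.relq.all fun t => pmOK (cl (lc X) (t.toList (get 5 O8p.iv)))))
    (band (cmOK X s [1] [4]) (cmOK X t [4, 6, 2, 4, 6, 2, 4] [7, 6, 2, 4, 6, 2, 7]))) = true

namespace Tb
variable {s t : Bool} (H : Tb T s t)

/-- words -/
def wd (l : List ℕ) : W0 := (l.map fun c => ⟨lt T c, lt_mem H.ev c⟩).prod

theorem cd (l : List ℕ) : Cd (H.wd l).1 (cl (lc (pk T)) l) := by
  have := map_list_prod W0.subtype (l.map fun c => ⟨lt T c, lt_mem H.ev c⟩)
  rw [List.map_map] at this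
  exact (show (H.wd l).1 = (l.map (lt T)).prod from this) ▸ .list (cd_lt H.len) l

theorem cm {s' : Bool} {a b : List ℕ} (h : cmOK (pk T) s' a b = true) : ⁅H.wd a, H.wd b⁆.1 = if s' then -1 else 1 := by
  rw [cmOK, forceB_eq, forceB_eq] at h
  have : Cd (if s' then -1 else 1) (cnd s' cn (cl cr [])) := by cases s'; exacts [.list cd_refl [], cd_neg]
  change (H.wd a).1 * (H.wd b).1 * (H.wd a).1⁻¹ * (H.wd b).1⁻¹ = _
  rw [((H.cd a).mul (H.cd b)).ext ((this.mul (H.cd b)).mul (H.cd a)) h, mul_inv_cancel_right, mul_inv_cancel_right]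

theorem cms : ⁅H.wd [1], H.wd [4]⁆.1 = (if s then -1 else 1) ∧
    ⁅H.wd [4, 6, 2, 4, 6, 2, 4], H.wd [7, 6, 2, 4, 6, 2, 7]⁆.1 = if t then -1 else 1 := by
  have := H.chk
  rw [forceB_eq, band_eq_true, band_eq_true, band_eq_true] at this
  exact ⟨H.cm this.2.1, H.cm this.2.2⟩

theorem hom {γ : ℕ → XX} (P : Pr γ O8p.iv O8p.relq) :
    ∃ φ : XX →* W0 ⧸ center W0, Function.Injective φ ∧ ∀ l : List ℕ, φ (l.map γ).prod = H.wd l := by
  have C := H.chk
  simp only [forceB_eq, band_eq_true, allLt_iff, List.all_eq_true] at C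
  let δ (c : ℕ) : W0 ⧸ center W0 := (⟨lt T c, lt_mem H.ev c⟩ : W0)
  have e (l : List ℕ) : (l.map δ).prod = H.wd l := by
    rw [wd, ← QuotientGroup.mk'_apply, map_list_prod, List.map_map]; rfl
  have z (c) (h : lt T c = 1) : δ c = 1 := (QuotientGroup.eq_one_iff _).2 (mem_ctr.2 (.inl h))
  have z0 := z 0 (by rw [lt, H.zero]; rfl)
  have L : Lab δ O8p.iv := ⟨z0, fun c => by
    rcases lt_or_ge c 8 with a | a
    · rw [(by decide : ∀ c < 8, get 5 O8p.iv c = c) c a]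
      exact (QuotientGroup.mk_mul _ _ _).symm.trans (Cd.one (c := mu (lc (pk T) c) (lc (pk T) c))
        (by exact (cd_lt H.len c).mul (cd_lt H.len c)) (C.1.1 c a))
    · rw [get_eq_zero (n := 8) (by decide) a, z0, z c (lt_one H.len a), one_mul]⟩
  obtain ⟨φ, f⟩ := P.pres _ δ L fun t m => by rw [← W.prod_toList L.inv, e]; exact (H.cd _).one (C.1.2 t m)
  have f' (l : List ℕ) : φ (l.map γ).prod = H.wd l := by rw [map_list_prod, List.map_map, ← e]; exact congrArg (l.map · |>.prod) (funext f)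
  have := Cfsg.Agent.S0296.result (F := K2) 4 le_rfl
  refine ⟨φ, φ.ker_eq_bot_iff.1 ((MonoidHom.normal_ker φ).eq_bot_or_eq_top.resolve_right fun n => ?_), f'⟩
  have k (a b) : ⁅H.wd a, H.wd b⁆.1 = 1 := congrArg Subtype.val (commutatorElement_eq_one_iff_mul_comm.2 (mem_center_iff.1
    ((QuotientGroup.eq_one_iff _).1 ((f' b).symm.trans (n.ge (mem_top _)))) _))
  rcases H.st with rfl | rfl
  exacts [neg_ne 1 (H.cms.1.symm.trans (k _ _)), neg_ne 1 (H.cms.2.symm.trans (k _ _))]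

end Tb

theorem tbA : Tb TA false true := ⟨rfl, by decide, rfl, by decide, by decide +kernel⟩

theorem tbB : Tb [[], [0, 3, 11, 43, 48, 69, 87, 112], [0, 2, 14, 24, 77, 89, 112, 116], [0, 3, 14, 42, 50, 78, 89, 177], [7, 29, 58, 160], [2, 81, 89, 187], [0, 3, 20, 27, 33, 63, 87, 178], [0, 1, 3, 32, 65, 108, 155, 195]] true true :=
  ⟨rfl, by decide, rfl, by decide, by decide +kernel⟩

theorem tbC : Tb [[], [0, 6, 16, 32, 43, 95, 142, 183], [0, 3, 6, 32, 42, 43, 66, 69], [0, 3, 14, 42, 50, 78, 89, 177], [7, 29, 58, 160], [16, 95, 130, 156], [0, 4, 36, 44, 99, 104, 113, 203], [0, 1, 3, 14, 89, 95, 108, 150]] true false :=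
  ⟨rfl, by decide, rfl, by decide, by decide +kernel⟩

theorem cardQ : Nat.card (W0 ⧸ center W0) = 174182400 := by
  obtain ⟨γ, P⟩ := O8p.pr
  obtain ⟨φ, a, b⟩ := tbA.hom P
  refine (Nat.card_eq_of_bijective φ ⟨a, fun y => ?_⟩).symm.trans O8p.cardQ
  obtain ⟨⟨y, m⟩, rfl⟩ := QuotientGroup.mk_surjective y
  have : ((φ.range.comap (QuotientGroup.mk' _)).map W0.subtype) = W0 := le_antisymm (map_subtype_le _) (W0_eq.1.le.trans
    ((closure_le _).2 (Set.range_subset_iff.2 fun c => ⟨tbA.wd [c], ⟨_, b [c]⟩, by simp [Tb.wd]⟩)))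
  obtain ⟨y, n, rfl⟩ := this.ge m
  exact n

theorem card_ctr : Nat.card (center W0) = 2 := Nat.card_eq_two_iff.2
  ⟨1, ⟨⟨-1, neg_mem0⟩, mem_ctr.2 (.inr rfl)⟩, fun e => neg_ne 1 (congrArg (·.1.1) e).symm, Set.eq_univ_of_forall fun z =>
    (mem_ctr.1 z.2).imp (fun e => Subtype.ext (Subtype.ext e)) fun e => Subtype.ext (Subtype.ext e)⟩

theorem card_W0 : Nat.card W0 = 348364800 := by
  rw [card_eq_card_quotient_mul_card_subgroup (center _), cardQ, card_ctr]

theorem Tb.cover {s t : Bool} (H : Tb T s t) {γ : ℕ → XX} (P : Pr γ O8p.iv O8p.relq) :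
    ∃ e : (W0 ⧸ center W0) ≃* XX, ∀ l : List ℕ, e (H.wd l) = (l.map γ).prod := by
  obtain ⟨φ, a, b⟩ := H.hom P
  have : Finite (W0 ⧸ center W0) := Nat.finite_of_card_ne_zero (by rw [cardQ]; decide)
  exact ⟨(MulEquiv.ofBijective φ (a.bijective_of_nat_card_le (cardQ.trans O8p.cardQ.symm).le)).symm, fun l =>
    (MulEquiv.symm_apply_eq _).2 (b l).symm⟩

theorem covers : ∃ (ρ : Fin 3 → W0 →* XX) (γ : List ℕ → XX) (wd : Fin 3 → List ℕ → W0) (a b c d : List ℕ),
    (∀ i, Function.Surjective (ρ i) ∧ (ρ i).ker = center W0 ∧ ∀ l, ρ i (wd i l) = γ l) ∧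
    ∀ i, ⁅wd i a, wd i b⁆.1 = ![1, -1, -1] i ∧ ⁅wd i c, wd i d⁆.1 = ![-1, -1, 1] i := by
  obtain ⟨γ, P⟩ := O8p.pr
  obtain ⟨a, a'⟩ := tbA.cover P
  obtain ⟨b, b'⟩ := tbB.cover P
  obtain ⟨c, c'⟩ := tbC.cover P
  refine ⟨fun i => (![a, b, c] i).toMonoidHom.comp (QuotientGroup.mk' _), fun l => (l.map γ).prod, ![tbA.wd, tbB.wd, tbC.wd],
    [1], [4], [4, 6, 2, 4, 6, 2, 4], [7, 6, 2, 4, 6, 2, 7], fun i => ⟨(MulEquiv.surjective _).comp (QuotientGroup.mk'_surjective _), ?_, ?_⟩, fun i => ?_⟩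
  · ext; simp
  · fin_cases i; exacts [a', b', c']
  · fin_cases i; exacts [tbA.cms, tbB.cms, tbC.cms]

theorem comm_ctr {G : Type*} [Group G] {a b c d : G} (h1 : a⁻¹ * c ∈ center G) (h2 : b⁻¹ * d ∈ center G) :
    ⁅c, d⁆ = ⁅a, b⁆ := by
  have k (z) (m : z ∈ center G) (g) : z * g * z⁻¹ = g := by rw [← mem_center_iff.1 m, mul_inv_cancel_right]
  calc _ = a * (a⁻¹ * c * d * (a⁻¹ * c)⁻¹) * a⁻¹ * d⁻¹ := by rw [commutatorElement_def]; group
    _ = a * b * (b⁻¹ * d * a⁻¹ * (b⁻¹ * d)⁻¹) * b⁻¹ := by rw [k _ h1]; group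
    _ = _ := by rw [k _ h2, commutatorElement_def]

theorem comm_dg (u : V) (k : Perm (Fin 8)) : ⁅dg u, pm k⁆ = dg (u * pa k u) := by
  rw [map_mul, ← pm_conj, commutatorElement_def, inv_eq_of_mul_eq_one_right (dg_sq u)]; simp only [mul_assoc]

theorem perfW : commutator W0 = ⊤ := by
  obtain ⟨ρ, γ, wd, a, b, c, d, h1, h2⟩ := covers
  have := Cfsg.Agent.S0296.result (F := K2) 4 le_rfl
  have e : (commutator W0).map (ρ 0) = ⊤ := by
    refine ((commutator_normal _ _).map _ (h1 0).1).eq_bot_or_eq_top.resolve_left fun n => ?_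
    have := mem_ctr.1 ((h1 0).2.1.le ((Subgroup.map_eq_bot_iff _).1 n (commutator_mem_commutator
      (mem_top ⟨dg (EE 0 2), dg_mem0.2 (by decide)⟩) (mem_top ⟨_, sw_mem0 (a := 0) (b := 1) (c := 2) (by decide) (by decide) (by decide)⟩))))
    change ⁅dg _, pm _⁆ = 1 ∨ ⁅dg _, pm _⁆ = -1 at this
    rw [comm_dg, ← dg_neg_one, ← map_one dg] at this
    exact this.elim (fun e => absurd (dg_inj e) (by decide)) fun e => absurd (dg_inj e) (by decide)
  rw [← comap_top (ρ 0), ← e, comap_map_eq, (h1 0).2.1, left_eq_sup]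
  intro z m
  rcases mem_ctr.1 m with m | m
  · rw [show z = 1 from Subtype.ext m]; exact one_mem _
  · rw [show z = _ from Subtype.ext (m.trans (h2 0).2.symm)]; exact commutator_mem_commutator (mem_top _) (mem_top _)

theorem ctr_two {G : Type*} [Group G] (hZ : Nat.card (center G) = 2) {a b : G} (p : a ∈ center G) (q : b ∈ center G) :
    a * b = 1 ↔ (a = 1 ↔ b = 1) := by
  obtain ⟨z, z1, z2⟩ := (Nat.card_eq_two_iff' 1).1 hZ
  refine ⟨fun e => ⟨fun f => by simpa [f] using e, fun f => by simpa [f] using e⟩, fun e => ?_⟩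
  by_cases f : a = 1
  · rw [f, e.1 f, one_mul]
  have := (z2 ⟨a, p⟩ fun g => f (congrArg Subtype.val g)).trans (z2 ⟨b, q⟩⁻¹ fun g =>
    f (e.2 (congrArg Subtype.val (inv_eq_one.1 g)))).symm
  exact eq_inv_iff_mul_eq_one.1 (congrArg Subtype.val this)

theorem map_comm {G A : Type*} [Group G] [Group A] {f : G →* A} (s : Function.Surjective f) (p : commutator A = ⊤) :
    Function.Surjective (f.comp (commutator G).subtype) := fun a => by
  obtain ⟨x, m, rfl⟩ : a ∈ (commutator G).map f := by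
    rw [map_commutator_eq, MonoidHom.range_eq_top.2 s]; exact p.ge (mem_top _)
  exact ⟨⟨x, m⟩, rfl⟩

theorem model {L : Type*} [Group L] [Finite L] (hp : commutator L = ⊤) (hZ : Nat.card (center L) = 2)
    (e : (L ⧸ center L) ≃* XX) : Nonempty (L ≃* W0) := by
  obtain ⟨ρ, γ, wd, a, b, c, d, h1, h2⟩ := covers
  let π := e.toMonoidHom.comp (QuotientGroup.mk' _)
  have πs : Function.Surjective π := e.surjective.comp (QuotientGroup.mk'_surjective _)
  have πk (l) : π l = 1 ↔ l ∈ center L := by simp [π]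
  have ρk (i p) : ρ i p = 1 ↔ p ∈ center W0 := by rw [← (h1 i).2.1]; rfl
  let T : Subgroup (L × (Fin 3 → W0)) :=
    { carrier := {t | ∀ i, ρ i (t.2 i) = π t.1}, one_mem' := fun i => by simp
      mul_mem' := fun p q i => by simp [p i, q i], inv_mem' := fun p i => by simp [p i] }
  let f : T →* L := (MonoidHom.fst _ _).comp T.subtype
  let g (i) : T →* W0 := ((Pi.evalMonoidHom _ i).comp (MonoidHom.snd _ _)).comp T.subtype
  have fs : Function.Surjective f := fun l => ⟨⟨(l, fun i => ((h1 i).1 (π l)).choose), fun i => ((h1 i).1 (π l)).choose_spec⟩, rfl⟩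
  have gs (i) : Function.Surjective (g i) := fun p => by
    obtain ⟨l, hl⟩ := πs (ρ i p)
    refine ⟨⟨(l, Function.update (fun i => ((h1 i).1 (π l)).choose) i p), fun j => ?_⟩, by simp [g]⟩
    rcases eq_or_ne j i with rfl | n
    · simp [hl]
    · simpa [n] using ((h1 j).1 (π l)).choose_spec
  have fg (t i) : ρ i (g i t) = π (f t) := t.2 i
  obtain ⟨m, ms⟩ := exists_surjective_hopf (Cfsg.Agent.S2098.result (F := K2) Asch.TF.card) (ξ := π.comp f) (πs.comp fs)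
    fun t m => mem_center_iff.2 fun y => Subtype.ext (Prod.ext (mem_center_iff.1 ((πk _).1 m) _)
      (funext fun i => mem_center_iff.1 ((ρk i _).1 ((fg t i).trans m)) _))
  let tl (l) : T := ⟨((πs (γ l)).choose, fun i => wd i l), fun i => ((h1 i).2.2 l).trans (πs (γ l)).choose_spec.symm⟩
  have gx (i) : (g i ⁅tl a, tl b⁆).1 = ![1, -1, -1] i := (h2 i).1
  have gy (i) : (g i ⁅tl c, tl d⁆).1 = ![-1, -1, 1] i := (h2 i).2
  have mx : ⁅tl a, tl b⁆ ∈ hopf (π.comp f) := ⟨(fg _ 0).symm.trans ((ρk 0 _).2 (mem_ctr.2 (.inl (gx 0)))),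
    commutator_mem_commutator (mem_top _) (mem_top _)⟩
  have my : ⁅tl c, tl d⁆ ∈ hopf (π.comp f) := ⟨(fg _ 0).symm.trans ((ρk 0 _).2 (mem_ctr.2 (.inr (gy 0)))),
    commutator_mem_commutator (mem_top _) (mem_top _)⟩
  generalize ⁅tl a, tl b⁆ = x, ⁅tl c, tl d⁆ = y at gx gy mx my
  have n1 := neg_ne 1
  have all {p : T → Prop} (p1 : p 1) (px : p x) (py : p y) (pxy : p (x * y)) (t) (m' : t ∈ hopf (π.comp f)) : p t := by
    obtain ⟨i, hi⟩ := (Function.Injective.bijective_of_nat_card_le (f := (![1, ⟨x, mx⟩, ⟨y, my⟩, ⟨x * y, mul_mem mx my⟩] :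
      Fin 4 → hopf (π.comp f))) (fun i j e => by
        have e0 := congrArg (fun t => (g 0 t.1).1) e
        have e1 := congrArg (fun t => (g 1 t.1).1) e
        fin_cases i <;> fin_cases j <;> simp [gx, gy, n1, n1.symm] at e0 e1 ⊢)
      ((Nat.card_le_card_of_surjective m ms).trans (by simp))).2 ⟨t, m'⟩
    rw [← show _ = t from congrArg Subtype.val hi]
    fin_cases i; exacts [p1, px, py, pxy]
  obtain ⟨i, ix, iy⟩ : ∃ i, (f x = 1 ↔ g i x = 1) ∧ (f y = 1 ↔ g i y = 1) := by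
    simp only [Subtype.ext_iff (a2 := (1 : W0)), gx, gy]
    by_cases p : f x = 1 <;> by_cases q : f y = 1
    · obtain ⟨z, z1, -⟩ := (Nat.card_eq_two_iff' 1).1 hZ
      obtain ⟨t, ht⟩ := map_comm fs hp z
      have := ht.symm.trans (all (p := (f · = 1)) (map_one f) p q (by simp [p, q]) t
        ⟨(congrArg π ht).trans ((πk _).2 z.2), t.2⟩)
      exact absurd (Subtype.ext this) z1
    exacts [⟨0, by simp [p, q, n1]⟩, ⟨2, by simp [p, q, n1]⟩, ⟨1, by simp [p, q, n1]⟩]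
  have key := all (p := fun t => f t = 1 ↔ g i t = 1) (by simp) ix iy (by
    rw [map_mul, map_mul, ctr_two hZ ((πk _).1 mx.1) ((πk _).1 my.1), ix, iy,
      ctr_two card_ctr ((ρk i _).1 ((fg _ i).trans mx.1)) ((ρk i _).1 ((fg _ i).trans my.1))])
  have ke : (f.comp (commutator T).subtype).ker = ((g i).comp (commutator T).subtype).ker :=
    Subgroup.ext fun t => ⟨fun n => (key t ⟨(congrArg π n).trans (map_one π), t.2⟩).1 n, fun n =>
      (key t ⟨(fg _ i).symm.trans ((congrArg (ρ i) n).trans (map_one _)), t.2⟩).2 n⟩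
  exact ⟨(QuotientGroup.quotientKerEquivOfSurjective _ (map_comm fs hp)).symm.trans ((QuotientGroup.quotientMulEquivOfEq ke).trans
    (QuotientGroup.quotientKerEquivOfSurjective _ (map_comm (gs i) perfW)))⟩

/-- conjugation -/
def cj (w : WW) : MulAut W0 where
  toFun p := ⟨w * p * w⁻¹, conj_mem0 w.2 p.2⟩
  invFun p := ⟨w⁻¹ * p * w⁻¹⁻¹, conj_mem0 w⁻¹.2 p.2⟩
  left_inv p := Subtype.ext (by simp [mul_assoc])
  right_inv p := Subtype.ext (by simp [mul_assoc])
  map_mul' p q := Subtype.ext (by simp [mul_assoc])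

theorem six {i j k : ℕ} (h : i * j * k = 6) (a : i ≠ 1) (b : k ≠ 1) : j = 1 := by_contra fun c => by
  have t {n : ℕ} (p : n ≠ 1) (q : n ∣ 6) : 2 ≤ n := by rcases n with _ | _ | n <;> simp at p q ⊢
  have := Nat.mul_le_mul (Nat.mul_le_mul (t a ⟨_, h.symm.trans (mul_assoc _ _ _)⟩) (t c (h ▸ (dvd_mul_left _ _).mul_right _)))
    (t b (h ▸ dvd_mul_left _ _))
  omega

theorem aut (α : MulAut W0) : ∃ w : WW, α = cj w := by
  obtain ⟨ρ, γ, wd, a, b, c, d, h1, h2⟩ := covers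
  have ρk (i p q) (h : ρ i p = ρ i q) : p⁻¹ * q ∈ center W0 := by
    rw [← (h1 i).2.1, MonoidHom.mem_ker, map_mul, map_inv, h, inv_mul_cancel]
  have ext (α β : MulAut W0) (h : ∀ p, ρ 0 (α p) = ρ 0 (β p)) : α = β := by
    have : commutator W0 ≤ α.toMonoidHom.eqLocus β.toMonoidHom := commutator_le.2 fun p _ q _ =>
      (map_commutatorElement α p q).trans ((comm_ctr (ρk 0 _ _ (h p)) (ρk 0 _ _ (h q))).symm.trans
        (map_commutatorElement β p q).symm)
    exact MulEquiv.ext fun p => this (perfW.ge (mem_top p))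
  let E (i) : (W0 ⧸ center W0) ≃* XX := (QuotientGroup.quotientMulEquivOfEq (h1 i).2.1.symm).trans
    (QuotientGroup.quotientKerEquivOfSurjective _ (h1 i).1)
  have hE (i) (p : W0) : (E i).symm (ρ i p) = p := (MulEquiv.symm_apply_eq _).2 rfl
  have ex (α : MulAut W0) : ∃ σ : MulAut XX, ∀ p, σ (ρ 0 p) = ρ 0 (α p) :=
    ⟨(E 0).symm.trans ((Linear.centerQuotCongr α).trans (E 0)), fun p => by rw [MulEquiv.trans_apply, hE]; rfl⟩
  let B (S : Subgroup (MulAut W0)) : Subgroup (MulAut XX) :=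
    { carrier := {σ | ∃ α ∈ S, ∀ p, σ (ρ 0 p) = ρ 0 (α p)}, one_mem' := ⟨1, one_mem _, fun _ => rfl⟩
      mul_mem' := fun ⟨α, a, a'⟩ ⟨β, b, b'⟩ => ⟨α * β, mul_mem a b, fun p => (congrArg _ (b' p)).trans (a' _)⟩
      inv_mem' := fun {σ} ⟨α, a, a'⟩ => ⟨α⁻¹, inv_mem a, fun p => σ.injective (by simp [a'])⟩ }
  let S := (MonoidHom.mk' cj fun v w => MulEquiv.ext fun p => Subtype.ext (by simp [cj, mul_assoc])).range
  have cjρ (q p : W0) : MulAut.conj (ρ 0 q) (ρ 0 p) = ρ 0 (cj ⟨q, q.2.1⟩ p) := by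
    rw [MulAut.conj_apply, ← map_inv, ← map_mul, ← map_mul]; exact congrArg _ (Subtype.ext rfl)
  have l1 : Inn XX ≤ B S := by
    rintro _ ⟨x, rfl⟩
    obtain ⟨q, rfl⟩ := (h1 0).1 x
    exact ⟨_, ⟨⟨q, q.2.1⟩, rfl⟩, cjρ q⟩
  have l2 : B S ≤ B ⊤ := fun _ ⟨α, _, a⟩ => ⟨α, mem_top _, a⟩
  have n1 : (Inn XX).relIndex (B S) ≠ 1 := fun e => by
    obtain ⟨σ, s⟩ := ex (cj ⟨_, refl_mem 0⟩)
    obtain ⟨x, rfl⟩ := relIndex_eq_one.1 e ⟨_, ⟨_, rfl⟩, s⟩
    obtain ⟨q, rfl⟩ := (h1 0).1 x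
    have := ext (cj ⟨q, q.2.1⟩) _ fun p => (cjρ q p).symm.trans (s p)
    refine refl_not 0 ((mul_mem_cancel_left q⁻¹.2).1 ((cen (mul_mem q⁻¹.2.1 (refl_mem 0)) fun g m => ?_).elim
      (fun e => e ▸ one_mem _) fun e => e ▸ neg_mem0))
    have : q * g * q.1⁻¹ = refl 0 * g * (refl 0)⁻¹ := congrArg Subtype.val (MulEquiv.congr_fun this ⟨g, m⟩)
    change q.1⁻¹ * _ * g = g * (q.1⁻¹ * _)
    rw [mul_assoc, ← inv_mul_cancel_right (refl 0 * g) (refl 0), ← this]
    group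
  have n2 : (B ⊤).index ≠ 1 := fun e => by
    obtain ⟨α, -, s⟩ := (index_eq_one.1 e).ge (mem_top ((E 1).symm.trans (E 0)))
    have k (l) : (wd 1 l)⁻¹ * α (wd 0 l) ∈ center W0 := ρk 0 _ _ (by
      rw [← s, (h1 0).2.2, ← (h1 1).2.2, MulEquiv.trans_apply, hE]; rfl)
    have := comm_ctr (k a) (k b)
    rw [← map_commutatorElement, show ⁅wd 0 a, wd 0 b⁆ = 1 from Subtype.ext (h2 0).1, map_one] at this
    exact neg_ne 1 ((h2 1).1.symm.trans (congrArg Subtype.val this).symm)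
  obtain ⟨o⟩ : Nonempty (Out XX ≃* Perm (Fin 3) × Multiplicative (ZMod 1)) := by
    simpa using Cfsg.Agent.S2607.result (F := K2) (m := 4) le_rfl Asch.TF.card le_rfl
  have i6 : (Inn XX).index = 6 := (Nat.card_congr o.toEquiv).trans (by simp [Fintype.card_perm]; rfl)
  rw [← relIndex_mul_index (l1.trans l2), ← relIndex_mul_relIndex _ _ _ l1 l2] at i6
  obtain ⟨σ, s⟩ := ex α
  obtain ⟨_, ⟨w, rfl⟩, s'⟩ := relIndex_eq_one.1 (six i6 n1 n2) ⟨α, mem_top _, s⟩
  exact ⟨w, ext _ _ fun p => (s p).symm.trans (s' p)⟩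

end Cfsg.Lib.E8W
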